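import Mathlib
import Cfsg.Agent.PN4.Abs
import Cfsg.Agent.PN4.Red
import Cfsg.Agent.RCl.Solv
import Cfsg.Agent.S3861
import Cfsg.Agent.GT.PPrimeCore

/-! Real elements of odd order and the subgroup they generate, for S3860. -/

set_option autoImplicit false
set_option linter.unusedSectionVars false

namespace Cfsg.Agent.R2L

open Subgroup Cfsg.Agent.GT.Tr Cfsg.Agent.Loc.Mss Cfsg.Agent.PN4

variable {G : Type*} [Group G] {K : Type*} [Group K]

/-- odd order elements of `M` inverted by an element of `X` -/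
def RS (X M : Subgroup G) : Set G :=
  {w | w ∈ M ∧ Odd (orderOf w) ∧ ∃ t ∈ X, t * w * t⁻¹ = w⁻¹}

/-- the subgroup they generate -/
def RG (X M : Subgroup G) : Subgroup G := closure (RS X M)

/-- that subgroup has odd order -/
def Q (X M : Subgroup G) : Prop := ∀ x ∈ RG X M, Odd (orderOf x)

variable {X M X' M' : Subgroup G}

theorem mem_RG {w t : G} (h1 : w ∈ M) (h2 : Odd (orderOf w)) (h3 : t ∈ X)
    (h4 : t * w * t⁻¹ = w⁻¹) : w ∈ RG X M :=
  subset_closure ⟨h1, h2, t, h3, h4⟩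

theorem RG_le : RG X M ≤ M := (closure_le _).2 fun _ h => h.1

theorem RG_mono (h1 : X ≤ X') (h2 : M ≤ M') : RG X M ≤ RG X' M' :=
  closure_mono fun _ ⟨a, b, t, c, d⟩ => ⟨h2 a, b, t, h1 c, d⟩

theorem Q.mono (h : Q X' M') (h1 : X ≤ X') (h2 : M ≤ M') : Q X M :=
  fun x hx => h x (RG_mono h1 h2 hx)

theorem odd_conj {w : G} (h : Odd (orderOf w)) (g : G) : Odd (orderOf (g * w * g⁻¹)) := by
  rwa [← MulAut.conj_apply, MulEquiv.orderOf_eq]

theorem norm_RG [Finite G] {g : G} (h1 : g ∈ 𝐍[X]) (h2 : g ∈ 𝐍[M]) : g ∈ 𝐍[RG X M] := by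
  refine mem_norm_of_cj_le (cj_le_iff.2 fun a ha => ?_)
  induction ha using closure_induction with
  | mem x hx =>
    obtain ⟨a, b, t, c, d⟩ := hx
    refine mem_RG (conj_mem_of_norm h2 a) (odd_conj b g) (conj_mem_of_norm h1 c) ?_
    calc g * t * g⁻¹ * (g * x * g⁻¹) * (g * t * g⁻¹)⁻¹ = g * (t * x * t⁻¹) * g⁻¹ := by group
      _ = (g * x * g⁻¹)⁻¹ := by rw [d]; group
  | one => simp
  | mul x y _ _ hx hy =>
    have : g * (x * y) * g⁻¹ = g * x * g⁻¹ * (g * y * g⁻¹) := by group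
    rw [this]; exact mul_mem hx hy
  | inv x _ hx =>
    have : g * x⁻¹ * g⁻¹ = (g * x * g⁻¹)⁻¹ := by group
    rw [this]; exact inv_mem hx

theorem odd_card_iff [Finite G] {H : Subgroup G} :
    Odd (Nat.card H) ↔ ∀ x ∈ H, Odd (orderOf x) := by
  refine ⟨fun h x hx => h.of_dvd_nat (orderOf_dvd_natCard H hx), fun h => ?_⟩
  have := not_dvd_card_of_forall_coprime (p := 2) fun x hx => Nat.coprime_two_right.2 (h x hx)
  rw [Nat.odd_iff]; omega

theorem Q.odd [Finite G] (h : Q X M) : Odd (Nat.card (RG X M)) := odd_card_iff.2 h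

theorem odd_map (f : G →* K) {x : G} (h : Odd (orderOf x)) : Odd (orderOf (f x)) :=
  h.of_dvd_nat (orderOf_map_dvd f x)

theorem eq_one_of_odd {x : G} (h : Odd (orderOf x)) {k : ℕ} (hk : x ^ 2 ^ k = 1) : x = 1 :=
  eq_one_of_coprime (Nat.coprime_two_right.2 h) hk

theorem eq_one_of_inv {x : G} (h : Odd (orderOf x)) (e : x⁻¹ = x) : x = 1 :=
  eq_one_of_odd h (k := 1) (by rw [pow_one, pow_two, mul_eq_one_iff_inv_eq, e])

theorem sq_two {s : G} (h : orderOf s = 2) : s * s = 1 := by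
  rw [← pow_two, ← h, pow_orderOf_eq_one]

theorem ne_two {s : G} (h : orderOf s = 2) : s ≠ 1 := fun e => by
  rw [e, orderOf_one] at h; omega

theorem ord_two {s : G} (h : s * s = 1) (h1 : s ≠ 1) : orderOf s = 2 :=
  orderOf_eq_prime (by rwa [pow_two]) h1

theorem pg_zp {t : G} {k : ℕ} (h : t ^ 2 ^ k = 1) : IsPGroup 2 (zpowers t) :=
  pg_iff.2 fun z hz => by
    obtain ⟨n, rfl⟩ := hz
    exact ⟨k, by rw [← zpow_natCast, ← zpow_mul, mul_comm, zpow_mul, zpow_natCast, h, one_zpow]⟩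

theorem exists_two_lift [Finite G] (f : G →* K) {g : G} {y : K} (h : f g * y * (f g)⁻¹ = y⁻¹) :
    ∃ a ∈ zpowers g, (∃ j, a ^ 2 ^ j = 1) ∧ f a * y * (f a)⁻¹ = y⁻¹ := by
  obtain ⟨j, m, hm, e⟩ := Nat.exists_eq_two_pow_mul_odd (orderOf_pos g).ne'
  refine ⟨g ^ m, npow_mem_zpowers g m, ⟨j, ?_⟩, ?_⟩
  · rw [← pow_mul, mul_comm, ← e, pow_orderOf_eq_one]
  · rw [map_pow]; exact RCl.pow_odd_inverts h hm

theorem odd_of_map [Finite G] (f : G →* K) (hk : ∀ x, f x = 1 → Odd (orderOf x)) {x : G}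
    (h : Odd (orderOf (f x))) : Odd (orderOf x) := by
  have h1 := hk (x ^ orderOf (f x)) (by rw [map_pow, pow_orderOf_eq_one])
  refine (h.mul h1).of_dvd_nat (orderOf_dvd_of_pow_eq_one ?_)
  rw [pow_mul, pow_orderOf_eq_one]

/-- lifting a real element through an odd kernel -/
theorem lift_real [Finite G] (f : G →* K) (hk : ∀ x, f x = 1 → Odd (orderOf x)) (hn : X ≤ 𝐍[M])
    {v t : G} (hv : v ∈ M) (ho : Odd (orderOf (f v))) (ht : t ∈ X)
    (h : f t * f v * (f t)⁻¹ = (f v)⁻¹) : ∃ x ∈ RS X M, f x = f v := by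
  obtain ⟨a, ha, ⟨j, hj⟩, h1⟩ := exists_two_lift f h
  have haX : a ∈ X := zpowers_le.2 ht ha
  have hR : ∀ x ∈ M ⊓ (zpowers (f v)).comap f, Odd (orderOf x) := fun x hx =>
    odd_of_map f hk (ho.of_dvd_nat (orderOf_dvd_of_mem_zpowers hx.2))
  obtain ⟨x, hx, h2, h3⟩ := RCl.exists_inverted_fiber f (odd_card_iff.2 hR) (a := a)
    (mem_norm_of_cj_le (cj_le_iff.2 fun x hx => ⟨conj_mem_of_norm (hn haX) hx.1, by
      obtain ⟨n, hn⟩ := hx.2
      refine ⟨-n, ?_⟩
      rw [map_mul, map_mul, map_inv, ← hn, ← conj_zpow, h1]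
      simp⟩)) hj (v := v) ⟨hv, mem_zpowers _⟩ h1
  exact ⟨x, ⟨hx.1, hR x hx, a, haX, h3⟩, h2⟩

/-- a `2`-element normalising a group of even order centralises an involution of it -/
theorem exists_inv_comm [Finite G] {Y : Subgroup G} {t : G} {k : ℕ} (ht : t ^ 2 ^ k = 1)
    (hn : t ∈ 𝐍[Y]) (h : 2 ∣ Nat.card Y) : ∃ s ∈ Y, orderOf s = 2 ∧ Commute s t := by
  let φ : zpowers t →* MulAut Y := Y.normalizerMonoidHom.comp (inclusion (zpowers_le.2 hn))
  let _ := MulAction.compHom Y φ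
  have h1 := (pg_zp ht).card_modEq_card_fixedPoints Y
  have h2 : Nat.card (MulAction.fixedPoints (zpowers t) Y) = Nat.card ↥(Y ⊓ centralizer {t}) := by
    refine Nat.card_congr ⟨fun x => ⟨x.1, x.1.2, mem_centralizer_singleton_iff.2 ?_⟩,
      fun x => ⟨⟨x.1, x.2.1⟩, fun g => Subtype.ext ?_⟩, fun _ => rfl, fun _ => rfl⟩
    · have : t * x.1 * t⁻¹ = x.1 := congrArg Subtype.val (x.2 ⟨t, mem_zpowers t⟩)
      exact (mul_inv_eq_iff_eq_mul.1 this).symm
    · obtain ⟨_, n, rfl⟩ := g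
      have : Commute (x : G) t := mem_centralizer_singleton_iff.1 x.2.2
      change t ^ n * x * (t ^ n)⁻¹ = x
      rw [← (this.zpow_right n).eq, mul_inv_cancel_right]
  obtain ⟨s, hs⟩ := exists_prime_orderOf_dvd_card' (G := ↥(Y ⊓ centralizer {t})) 2
    (h2 ▸ (Nat.modEq_zero_iff_dvd.1 (h1.symm.trans (Nat.modEq_zero_iff_dvd.2 h))))
  exact ⟨s, s.2.1, by rwa [Subgroup.orderOf_coe], mem_centralizer_singleton_iff.1 s.2.2⟩

/-- the configuration studied by induction -/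
structure Cfg (M : Subgroup G) : Prop where
  A : ∀ s : G, orderOf s = 2 → Q (centralizer {s}) (M ⊓ centralizer {s})
  B : ∀ w ∈ RS ⊤ M, w ≠ 1 → ∃ s : G, orderOf s = 2 ∧ Commute s w

theorem Cfg.mono {N : Subgroup G} (h : Cfg M) (hle : N ≤ M) : Cfg N :=
  ⟨fun s hs => (h.A s hs).mono le_rfl (inf_le_inf_right _ hle),
    fun w hw => h.B w ⟨hle hw.1, hw.2⟩⟩

theorem Cfg.B' [Finite G] (h : Cfg M) {w t : G} (hw : w ∈ M) (ho : Odd (orderOf w)) (h1 : w ≠ 1)
    {k : ℕ} (ht : t ^ 2 ^ k = 1) (e : t * w * t⁻¹ = w⁻¹) :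
    ∃ s : G, orderOf s = 2 ∧ Commute s w ∧ Commute s t := by
  obtain ⟨s, hs, hc⟩ := h.B w ⟨hw, ho, t, mem_top t, e⟩ h1
  obtain ⟨u, hu, h2, h3⟩ := exists_inv_comm (Y := centralizer {w}) ht
    (mem_norm_of_cj_le (cj_le_iff.2 fun x hx => mem_centralizer_singleton_iff.2 (by
      have a : Commute x w := mem_centralizer_singleton_iff.1 hx
      have b : t⁻¹ * w * t = w⁻¹ := by
        have : w = t * w⁻¹ * t⁻¹ := (RCl.conj_inv_of_inverts e).symm
        conv_lhs => rw [this]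
        group
      calc t * x * t⁻¹ * w = t * (x * (t⁻¹ * w * t)) * t⁻¹ := by group
        _ = t * ((t⁻¹ * w * t) * x) * t⁻¹ := by rw [b, a.inv_right.eq]
        _ = w * (t * x * t⁻¹) := by group)))
    (hs ▸ orderOf_dvd_natCard _ (mem_centralizer_singleton_iff.2 hc))
  exact ⟨u, h2, mem_centralizer_singleton_iff.1 hu, h3⟩

/-- the subgroup attached to an involution -/
abbrev RI (M : Subgroup G) (s : G) : Subgroup G := RG (centralizer {s}) (M ⊓ centralizer {s})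

theorem mem_RI {s w t : G} (h1 : w ∈ M) (h2 : Odd (orderOf w)) (h3 : Commute s w)
    (h4 : Commute s t) (h5 : t * w * t⁻¹ = w⁻¹) : w ∈ RI M s :=
  mem_RG ⟨h1, mem_centralizer_singleton_iff.2 h3.symm⟩ h2
    (mem_centralizer_singleton_iff.2 h4.symm) h5

theorem norm_RI [Finite G] [M.Normal] {s : G} : centralizer {s} ≤ 𝐍[RI M s] := fun _ hg =>
  norm_RG (le_normalizer hg) (norm_inf (norm_normal _ M) le_normalizer hg)

/-- modulo the subgroup generated by the real elements of odd order a group is `2`-closed -/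
theorem normal_sylow [Finite G] {N : Subgroup G} [N.Normal] (ho : Odd (Nat.card N))
    (h : RG ⊤ ⊤ ≤ N) (P : Sylow 2 (G ⧸ N)) : (P : Subgroup (G ⧸ N)).Normal := by
  refine (S3861.result P).1 fun x h1 h2 h3 => h1 ?_
  obtain ⟨t, ht⟩ := isConj_iff.1 h3
  obtain ⟨t, rfl⟩ := QuotientGroup.mk'_surjective N t
  obtain ⟨x, rfl⟩ := QuotientGroup.mk'_surjective N x
  obtain ⟨y, hy, e⟩ := lift_real (X := ⊤) (M := ⊤) (QuotientGroup.mk' N)
    (fun x hx => odd_card_iff.1 ho x ((QuotientGroup.eq_one_iff x).1 hx)) (norm_normal _ _)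
    (mem_top x) h2 (mem_top t) ht
  rw [← e]
  exact (QuotientGroup.eq_one_iff y).2 (h (subset_closure hy))

theorem Q.sub (h : Q X M) (hle : M ≤ X) : Q (⊤ : Subgroup M) ⊤ := fun x hx => by
  rw [← Subgroup.orderOf_coe]
  refine h _ ?_
  have : (RG (⊤ : Subgroup M) ⊤).map M.subtype ≤ RG X M := by
    rw [RG, MonoidHom.map_closure, closure_le]
    rintro _ ⟨y, ⟨-, a, t, -, b⟩, rfl⟩
    exact mem_RG y.2 (by rwa [coe_subtype, Subgroup.orderOf_coe]) (hle t.2) (congrArg Subtype.val b)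
  exact this (mem_map_of_mem _ hx)

instance normal_RG [Finite G] [M.Normal] : (RG ⊤ M).Normal :=
  normalizer_eq_top_iff.1 (eq_top_iff.2 fun _ hg =>
    norm_RG (le_normalizer hg) (norm_normal _ M hg))

theorem Q.isSolvable_top [Finite G] (h : Q (⊤ : Subgroup G) ⊤) : Group.IsSolvable G := by
  obtain ⟨P⟩ : Nonempty (Sylow 2 (G ⧸ RG (⊤ : Subgroup G) ⊤)) := inferInstance
  have := normal_sylow h.odd le_rfl P
  have h1 := P.2.isNilpotent
  refine RCl.isSolvable_of_normal _ (S0205.result h.odd) (RCl.isSolvable_of_normal P inferInstance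
    (S0205.result ?_))
  have := P.not_dvd_index
  rw [← index_eq_card, Nat.odd_iff]
  omega

theorem Q.isSolvable [Finite G] (h : Q X M) (hle : M ≤ X) : Group.IsSolvable M :=
  (h.sub hle).isSolvable_top

end Cfsg.Agent.R2L
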