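import Mathlib
import Cfsg.Agent.R2L.Defs

/-! The induction on the configuration `Cfg`. -/

set_option autoImplicit false
set_option linter.unusedSectionVars false

namespace Cfsg.Agent.R2L

open Subgroup Cfsg.Agent.GT.Tr Cfsg.Agent.Loc.Mss Cfsg.Agent.PN4

universe u

variable {G : Type u} [Group G] [Finite G] {M N X : Subgroup G}

theorem map_RG_le {K : Type*} [Group K] (f : G →* K) {X' M' : Subgroup K} (h1 : X.map f ≤ X')
    (h2 : M.map f ≤ M') : (RG X M).map f ≤ RG X' M' := by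
  rw [RG, MonoidHom.map_closure, closure_le]
  rintro _ ⟨y, ⟨a, b, t, c, d⟩, rfl⟩
  refine mem_RG (h2 (mem_map_of_mem _ a)) (odd_map f b) (h1 (mem_map_of_mem _ c)) ?_
  rw [← map_inv, ← map_inv, ← map_mul, ← map_mul, d]

theorem Cfg.quot [M.Normal] (h : Cfg M) [N.Normal] (hN : Odd (Nat.card N)) :
    Cfg (M.map (QuotientGroup.mk' N)) := by
  set π := QuotientGroup.mk' N with hπ
  have hker : ∀ x : G, π x = 1 ↔ x ∈ N := fun x => QuotientGroup.eq_one_iff x
  have hk : ∀ x, π x = 1 → Odd (orderOf x) := fun x hx => odd_card_iff.1 hN x ((hker x).1 hx)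
  constructor
  · intro s hs
    obtain ⟨s, rfl⟩ := QuotientGroup.mk'_surjective N s
    rw [← hπ] at hs ⊢
    obtain ⟨a, -, ha, j, hj⟩ := lift_pow (p := 2) π (x := s) (k := 1)
      (by rw [pow_one, pow_two]; exact sq_two hs)
    rw [← ha] at hs ⊢
    have h1 : a ^ 2 = 1 := by
      refine eq_one_of_odd (k := j) (hk _ ?_) ?_
      · rw [map_pow, ← hs, pow_orderOf_eq_one]
      · rw [← pow_mul, mul_comm, pow_mul, ← hj, pow_orderOf_eq_one, one_pow]
    have h2 := h.A a (orderOf_eq_prime h1 fun e => ne_two hs (by rw [e, map_one]))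
    have key : ∀ (Y : Subgroup G) [Y.Normal], ∀ x ∈ Y, π x ∈ centralizer {π a} →
        ∃ y ∈ Y ⊓ centralizer {a}, π y = π x := fun Y _ x hx hx' => by
      obtain ⟨n, hn, hc⟩ := exists_commute (N := N ⊓ Y) (p := 2)
        (Nat.coprime_two_right.2 (hN.of_dvd_nat (card_dvd_of_le inf_le_left))) (x := x) h1
        ⟨(hker _).1 (by
          rw [map_mul, map_mul, map_mul, map_inv, map_inv, mem_centralizer_singleton_iff.1 hx']
          group), by
          have : a⁻¹ * (x * a * x⁻¹) = a⁻¹ * x * a⁻¹⁻¹ * x⁻¹ := by group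
          rw [this]
          exact Y.mul_mem (Normal.conj_mem inferInstance x hx _) (Y.inv_mem hx)⟩
      exact ⟨n * x, ⟨Y.mul_mem hn.2 hx, mem_centralizer_singleton_iff.2 hc⟩, by
        rw [map_mul, (hker n).2 hn.1, one_mul]⟩
    have h3 : RG (centralizer {π a}) (M.map π ⊓ centralizer {π a}) ≤ (RI M a).map π := by
      rw [RG, closure_le]
      rintro _ ⟨⟨⟨x, hx, rfl⟩, b1⟩, b2, t, b3, b4⟩
      obtain ⟨t, rfl⟩ := QuotientGroup.mk'_surjective N t
      obtain ⟨y, hy, e1⟩ := key M x hx b1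
      obtain ⟨u, hu, e2⟩ := key ⊤ t (mem_top t) b3
      rw [← hπ, ← e1, ← e2] at b4
      obtain ⟨z, hz, e3⟩ := lift_real (X := centralizer {a}) π hk
        (norm_inf (norm_normal _ M) le_normalizer) hy (e1 ▸ b2) hu.2 b4
      exact ⟨z, subset_closure hz, e3.trans e1⟩
    intro x hx
    obtain ⟨y, hy, rfl⟩ := h3 hx
    exact odd_map π (h2 y hy)
  · rintro _ ⟨⟨w, hw, rfl⟩, b1, t, -, b2⟩ b3
    obtain ⟨t, rfl⟩ := QuotientGroup.mk'_surjective N t
    obtain ⟨z, hz, e⟩ := lift_real (X := ⊤) π hk (norm_normal _ M) hw b1 (mem_top t) b2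
    obtain ⟨s, hs, hc⟩ := h.B z hz fun e' => b3 (by rw [← e, e', map_one])
    refine ⟨π s, ord_two (by rw [← map_mul, sq_two hs, map_one]) fun e => ?_, e ▸ hc.map π⟩
    have := hk s e
    rw [hs] at this
    exact absurd this (by decide)

theorem Q.of_quot [N.Normal] (hN : Odd (Nat.card N)) (h : Q ⊤ (M.map (QuotientGroup.mk' N))) :
    Q ⊤ M := fun _ hx =>
  odd_of_map (QuotientGroup.mk' N)
    (fun x hx => odd_card_iff.1 hN x ((QuotientGroup.eq_one_iff x).1 hx))
    (h _ (map_RG_le _ le_top le_rfl (mem_map_of_mem _ hx)))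

/-- the `A × B` lemma for an element of the subgroup attached to `s` -/
theorem Cfg.cent [M.Normal] (h : Cfg M) {s x : G} (hs : orderOf s = 2) (hx : x ∈ RI M s)
    {U : Subgroup G} (hU : IsPGroup 2 U) (h1 : s ∈ 𝐍[U]) (h2 : x ∈ 𝐍[U]) : x ∈ 𝐂[U] := by
  have hc : Commute x s := mem_centralizer_singleton_iff.1 (RG_le hx).2
  refine zpowers_le.1 (GT.CopAct.thompson_times (p := 2) (P := zpowers s)
    (pg_zp (k := 1) (by rw [pow_one, pow_two, sq_two hs])) ?_ hU ?_
    (zpowers_le.2 h1) (zpowers_le.2 h2) ?_)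
  · rw [Nat.card_zpowers]; exact Nat.coprime_two_right.2 (h.A s hs x hx)
  · refine zpowers_le.2 (mem_cent.2 ?_)
    rintro _ ⟨n, rfl⟩
    exact hc.zpow_left n
  · refine cent_comm (zpowers_le.2 (mem_cent.2 fun a ha => ?_))
    have h3 : a ∈ centralizer {s} :=
      mem_centralizer_singleton_iff.2 (mem_cent.1 ha.2 s (mem_zpowers s)).symm
    have h4 : a * x * a⁻¹ * x⁻¹ ∈ RI M s := mul_mem (conj_mem_of_norm (norm_RI h3) hx) (inv_mem hx)
    have h5 : a * x * a⁻¹ * x⁻¹ ∈ U := by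
      rw [mul_assoc, mul_assoc, ← mul_assoc x]
      exact U.mul_mem ha.1 (conj_mem_of_norm h2 (U.inv_mem ha.1))
    obtain ⟨k, hk⟩ := pg_iff.1 hU _ h5
    have := eq_one_of_odd (h.A s hs _ h4) hk
    rwa [mul_inv_eq_one, mul_inv_eq_iff_eq_mul] at this

theorem exists_two {w t : G} (h : t * w * t⁻¹ = w⁻¹) :
    ∃ a ∈ zpowers t, (∃ j, a ^ 2 ^ j = 1) ∧ a * w * a⁻¹ = w⁻¹ :=
  exists_two_lift (MonoidHom.id G) h

theorem Cfg.of_pg [M.Normal] (h : Cfg M) [N.Normal] (hN : IsPGroup 2 N) (h1 : N ≠ ⊥) :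
    Q ⊤ M := by
  have h2 : RG ⊤ M ≤ 𝐂[N] := by
    rw [RG, closure_le]
    rintro w ⟨a, b, t, -, c⟩
    by_cases e : w = 1
    · rw [e]; exact one_mem _
    obtain ⟨t, -, ⟨j, hj⟩, c⟩ := exists_two c
    obtain ⟨s, hs, c1, c2⟩ := h.B' a b e hj c
    exact h.cent hs (mem_RI a b c1 c2 c) hN (norm_normal (zpowers s) N (mem_zpowers s))
      (norm_normal (zpowers w) N (mem_zpowers w))
  have h3 : RG ⊤ M ≤ GT.pPrimeCoreOf 2 (RG ⊤ M) := by
    refine (closure_le _).2 ?_
    rintro w ⟨a, b, t, -, c⟩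
    obtain ⟨t', -, ⟨j, hj⟩, c'⟩ := exists_two c
    obtain ⟨k, hk⟩ := IsPGroup.iff_card.1 hN
    obtain ⟨z, hz, z2, z3⟩ := exists_inv_comm (Y := N) hj (norm_normal (zpowers t') N (mem_zpowers t'))
      (hk ▸ dvd_pow_self 2 fun e => h1 (card_eq_one.1 (by rw [hk, e, pow_zero])))
    have h4 : RG ⊤ M ≤ centralizer {z} := fun x hx =>
      mem_centralizer_singleton_iff.2 (mem_cent.1 (h2 hx) z hz).symm
    exact GT.le_pPrimeCoreOf (RG_mono le_top inf_le_left) (h4.trans norm_RI)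
      (Nat.coprime_two_right.2 (h.A z z2).odd) (mem_RI a b
        (mem_centralizer_singleton_iff.1 (h4 (mem_RG a b (mem_top t) c))).symm z3 c')
  exact fun x hx => odd_card_iff.1 (Nat.coprime_two_right.1 (GT.coprime_card_pPrimeCoreOf 2 _)) x
    (h3 hx)

theorem Cfg.solv (h : Cfg M) {s : G} (hs : orderOf s = 2) :
    Group.IsSolvable ↥(M ⊓ centralizer {s}) := (h.A s hs).isSolvable inf_le_right

theorem Cfg.simple (h : Cfg N) (hN : GT.IsMinNormal N) (hs : ¬ Group.IsSolvable N) :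
    IsSimpleGroup N := by
  obtain ⟨T, _, _, n, hn, ⟨e⟩⟩ := hN.exists_mulEquiv_pow
  have : Finite (Fin n → T) := Finite.of_equiv _ e.toEquiv
  have : Finite T := Finite.of_injective (fun x : T => fun _ : Fin n => x) fun x y h =>
    congrFun h ⟨0, hn⟩
  have hT : ¬ Group.IsSolvable T := fun h =>
    hs (Group.isSolvable_of_comm fun x y => e.injective (by
      rw [map_mul, map_mul]
      exact funext fun i => IsSimpleGroup.comm_iff_isSolvable.2 h _ _))
  have h2 : 2 ∣ Nat.card T := by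
    by_contra h2
    exact hT (S0205.result (Nat.odd_iff.2 (by omega)))
  obtain rfl : n = 1 := by
    by_contra h1
    obtain ⟨t, ht⟩ := exists_prime_orderOf_dvd_card' 2 h2
    let i : Fin n := ⟨0, hn⟩
    let j : Fin n := ⟨1, by omega⟩
    have hij : i ≠ j := by simp [i, j]
    let f : Fin n → T →* G := fun k =>
      N.subtype.comp (e.symm.toMonoidHom.comp (MonoidHom.mulSingle (fun _ : Fin n => T) k))
    have hf : ∀ k, Function.Injective (f k) := fun k =>
      N.subtype_injective.comp (e.symm.injective.comp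
        (Pi.mulSingle_injective (M := fun _ : Fin n => T) k))
    have h3 := h.solv (s := f i t) (by rwa [orderOf_injective _ (hf i)])
    have h4 : ∀ x, f j x ∈ N ⊓ centralizer {f i t} := fun x =>
      ⟨(e.symm _).2, mem_centralizer_singleton_iff.2
        (((Pi.mulSingle_commute (f := fun _ : Fin n => T) hij.symm x t).map e.symm).map N.subtype)⟩
    exact hT (Group.isSolvable_of_isSolvable_injective (f := (f j).codRestrict _ h4)
      fun x y e => hf j (by have := Subtype.ext_iff.1 e; exact this))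
  exact (e.trans (MulEquiv.funUnique (Fin 1) T)).isSimpleGroup

theorem ind (fin : ∀ (L : Type u) [Group L] [Finite L] (J : Subgroup L) [J.Normal]
      [IsSimpleGroup J], ¬ Group.IsSolvable J → 𝐂[J] = ⊥ → ¬ Cfg J)
    (L : Type u) [Group L] [Finite L] : ∀ M : Subgroup L, M.Normal → Cfg M → Q ⊤ M := by
  refine GT.card_induction (P := fun L _ _ => ∀ M : Subgroup L, M.Normal → Cfg M → Q ⊤ M) ?_ L
  intro L _ _ ih M _ h
  by_cases hO : ∃ N : Subgroup L, N.Normal ∧ Odd (Nat.card N) ∧ N ≠ ⊥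
  · obtain ⟨N, _, h1, h2⟩ := hO
    refine Q.of_quot h1 (ih _ ?_ _ inferInstance (h.quot h1))
    rw [card_eq_card_quotient_mul_card_subgroup N]
    exact lt_mul_of_one_lt_right Nat.card_pos (one_lt_card_iff_ne_bot N |>.2 h2)
  push Not at hO
  by_cases h0 : M = ⊥
  · intro x hx
    rw [mem_bot.1 (h0.le (RG_le hx))]
    simp
  obtain ⟨N, hN, hle⟩ := GT.exists_isMinNormal_le h0
  have := hN.normal
  by_cases h1 : Group.IsSolvable N
  · obtain ⟨q, hq, h2, -⟩ := hN.exists_isPGroup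
    by_cases h3 : q = 2
    · exact h.of_pg (h3 ▸ h2) hN.ne_bot
    · have := Fact.mk hq
      obtain ⟨k, hk⟩ := IsPGroup.iff_card.1 h2
      exact absurd (hO N inferInstance (hk ▸ (hq.odd_of_ne_two h3).pow)) hN.ne_bot
  · have h2 := h.mono hle
    have := h2.simple hN h1
    refine absurd h2 (fin L N h1 (hO _ inferInstance (odd_card_iff.2 fun x hx => ?_)))
    by_contra e
    obtain ⟨z, hz, z2⟩ := exists_two_pow e
    have h3 := h2.solv z2
    rw [inf_eq_left.2 fun y hy => mem_centralizer_singleton_iff.2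
      (mem_cent.1 (zpowers_le.2 hx hz) y hy)] at h3
    exact h1 h3

end Cfsg.Agent.R2L
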