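import Mathlib
import Cfsg.Agent.R2L.Ind
import Cfsg.Agent.S0017
import Cfsg.Agent.GT.Zipper
import Cfsg.Agent.GT.CoprimeProd
import Cfsg.Agent.Loc.ZC
import Cfsg.Agent.Inv.Classes

/-! Two abstract consequences of `Cfg` for a normal subgroup `J`. -/

set_option autoImplicit false
set_option linter.unusedSectionVars false

namespace Cfsg.Agent.R2L

open Subgroup Cfsg.Agent.GT.Tr Cfsg.Agent.Loc.Mss Cfsg.Agent.PN4

universe u

variable {L : Type u} [Group L] [Finite L] {J : Subgroup L} [J.Normal]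

/-- the cores of the centralisers in `J` of the involutions of `J` are trivial -/
def CF (J : Subgroup L) : Prop :=
  ∀ v ∈ J, orderOf v = 2 → GT.pPrimeCoreOf 2 (J ⊓ centralizer {v}) = ⊥

theorem norm_c1 {s v : L} (h : Commute s v) : s ∈ 𝐍[J ⊓ centralizer {v}] :=
  norm_inf (norm_normal _ J) le_normalizer (mem_centralizer_singleton_iff.2 h)

theorem Cfg.RI_le (h : Cfg J) {s : L} (hs : orderOf s = 2) :
    RI J s ≤ GT.pPrimeCoreOf 2 (J ⊓ centralizer {s}) :=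
  GT.le_pPrimeCoreOf RG_le (inf_le_right.trans norm_RI) (Nat.coprime_two_right.2 (h.A s hs).odd)

theorem Cfg.bal (h : Cfg J) (hF : CF J) {s v x : L} (hs : orderOf s = 2) (hv : v ∈ J)
    (v2 : orderOf v = 2) (h1 : Commute s v) (hx : x ∈ RI J s) (h2 : Commute x v) : x = 1 := by
  have := h.solv v2
  have h3 : ChP 2 (J ⊓ centralizer {v}) :=
    chP_iff.1 (S0017.result 2 (GT.pPrimeCoreOf_eq_bot_iff.1 (hF v hv v2)))
  have h4 : x ∈ J ⊓ centralizer {v} := ⟨(RG_le hx).1, mem_centralizer_singleton_iff.2 h2⟩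
  obtain ⟨k, hk⟩ := pg_iff.1 (pg_core _) x (h3 ⟨h4, h.cent hs hx (pg_core _)
    (norm_core le_rfl (norm_c1 h1)) (le_norm_core _ h4)⟩)
  exact eq_one_of_odd (h.A s hs x hx) hk

theorem exists_odd_inv [IsSimpleGroup J] (hJ : ¬ Group.IsSolvable J) {t : L} (ht : t ∈ J)
    (t2 : orderOf t = 2) : ∃ w ∈ J, w ≠ 1 ∧ Odd (orderOf w) ∧ t * w * t⁻¹ = w⁻¹ := by
  obtain ⟨w, h1, h2, h3⟩ := GT.exists_odd_inverted_of_not_mem_pCore (G := J) (t := ⟨t, ht⟩)
    (Subtype.ext (sq_two t2)) fun e => by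
      rcases IsSimpleGroup.eq_bot_or_eq_top_of_normal (pCore 2 J) inferInstance with a | a
      · rw [a, mem_bot] at e
        exact ne_two t2 (congrArg Subtype.val e)
      · have := (pg_top.1 (a ▸ GT.isPGroup_pCore 2 : IsPGroup 2 (⊤ : Subgroup J))).isNilpotent
        exact hJ inferInstance
  exact ⟨w, w.2, fun e => h1 (Subtype.ext e), by rwa [Subgroup.orderOf_coe],
    congrArg Subtype.val h3⟩

theorem card_le_four {E : Subgroup L} {s : L} (hE : ∀ x ∈ E, x * x = 1) (s2 : s * s = 1)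
    (hn : s ∈ 𝐍[E]) (h : Nat.card ↥(E ⊓ centralizer {s}) ≤ 2) : Nat.card E ≤ 4 := by
  have hW2 : ∀ x ∈ E, s * x * s⁻¹ ∈ E := fun x hx => conj_mem_of_norm hn hx
  have hW3 : ∀ x ∈ E, ∀ y ∈ E, x * y = y * x := fun x hx y hy =>
    calc x * y = (x * y)⁻¹ := (mul_eq_one_iff_inv_eq.1 (hE _ (mul_mem hx hy))).symm
      _ = y * x := by
        rw [mul_inv_rev, mul_eq_one_iff_inv_eq.1 (hE x hx), mul_eq_one_iff_inv_eq.1 (hE y hy)]
  have si : s⁻¹ = s := mul_eq_one_iff_inv_eq.1 s2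
  let f : E →* E := MonoidHom.mk' (fun x => ⟨x * (s * x * s⁻¹), mul_mem x.2 (hW2 _ x.2)⟩)
    fun x y => by
      apply Subtype.ext
      change (x : L) * y * (s * (x * y) * s⁻¹) = x * (s * x * s⁻¹) * (y * (s * y * s⁻¹))
      rw [mul_assoc (x : L) (s * x * s⁻¹), ← mul_assoc (s * x * s⁻¹), ← hW3 _ y.2 _ (hW2 _ x.2)]
      group
  have hk : f.ker ≤ (centralizer {s}).subgroupOf E := fun x hx => by
    have a : (x : L) * (s * x * s⁻¹) = 1 := congrArg Subtype.val hx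
    exact mem_centralizer_singleton_iff.2
      (mul_inv_eq_iff_eq_mul.1 (mul_left_cancel (a.trans (hE x x.2).symm))).symm
  have hr : f.range ≤ (centralizer {s}).subgroupOf E := by
    rintro _ ⟨x, rfl⟩
    refine mem_centralizer_singleton_iff.2 ?_
    change (x : L) * (s * x * s⁻¹) * s = s * (x * (s * x * s⁻¹))
    conv_rhs => rw [hW3 _ x.2 _ (hW2 _ x.2)]
    calc (x : L) * (s * x * s⁻¹) * s = (s * s) * x * (s * x) := by rw [s2]; group
      _ = s * (s * x * s⁻¹ * x) := by rw [si]; group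
  have a := f.ker.card_mul_index
  rw [index_ker] at a
  have b := Nat.mul_le_mul (card_le_of_le hk) (card_le_of_le hr)
  rw [← inf_subgroupOf_right, inf_comm, Nat.card_congr (subgroupOfEquivOfLe inf_le_left).toEquiv] at b
  have := Nat.mul_le_mul h h
  omega

theorem Cfg.four (h : Cfg J) (hF : CF J) [IsSimpleGroup J] (hJ : ¬ Group.IsSolvable J) {t : L}
    (ht : t ∈ J) (t2 : orderOf t = 2) {E : Subgroup L} (hle : E ≤ J) (hE : ∀ x ∈ E, x * x = 1)
    (hn : ∀ s, Commute s t → s ∈ 𝐍[E]) : Nat.card E ≤ 4 := by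
  obtain ⟨w, hw, h1, h2, h3⟩ := exists_odd_inv hJ ht t2
  obtain ⟨s, hs, c1, c2⟩ := h.B' hw h2 h1 (k := 1) (by rw [pow_one, pow_two, sq_two t2]) h3
  have hR := mem_RI hw h2 c1 c2 h3
  refine card_le_four hE (sq_two hs) (hn s c2) (not_lt.1 fun hc => ?_)
  have inv : ∀ a ∈ E ⊓ centralizer {s}, a ≠ 1 → a * w * a⁻¹ = w⁻¹ := fun a ha a1 =>
    Inv.inverts_of_fixedPointFree (hE a ha.1) (norm_RI ha.2) (fun x hx hc => h.bal hF hs (hle ha.1)
      (ord_two (hE a ha.1) a1) (mem_centralizer_singleton_iff.1 ha.2).symm hx hc) w hR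
  have := Fintype.ofFinite ↥(E ⊓ centralizer {s})
  rw [Nat.card_eq_fintype_card, Fintype.two_lt_card_iff] at hc
  obtain ⟨a, b, c, hab, hac, hbc⟩ := hc
  have key : ∀ x y : ↥(E ⊓ centralizer {s}), x ≠ y →
      ((x : L)⁻¹ * y) * w * ((x : L)⁻¹ * y)⁻¹ = w⁻¹ := fun x y hxy =>
    inv _ (x⁻¹ * y).2 fun e => hxy (Subtype.ext (inv_mul_eq_one.1 e))
  have e1 := key a b hab
  have e2 := key b c hbc
  have e3 := key a c hac
  rw [show (a : L)⁻¹ * c = ((a : L)⁻¹ * b) * ((b : L)⁻¹ * c) by group] at e3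
  generalize (a : L)⁻¹ * b = u at *
  generalize (b : L)⁻¹ * c = v at *
  refine h1 (eq_one_of_inv h2 ?_)
  calc w⁻¹ = u * (v * w * v⁻¹) * u⁻¹ := by rw [← e3]; group
    _ = (u * w * u⁻¹)⁻¹ := by rw [e2]; group
    _ = w := by rw [e1, inv_inv]

/-- a real element of prime order generating a Sylow subgroup with a small normaliser -/
structure WH (r : ℕ) (X : Type*) [Group X] : Prop where
  pr : r.Prime
  odd : r ≠ 2
  sq : ¬ r ^ 2 ∣ Nat.card X
  ex : ∃ w t : X, orderOf w = r ∧ t * w * t⁻¹ = w⁻¹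
  le : ∀ (w : X) (Y : Subgroup X), orderOf w = r → IsPGroup 2 Y → Y ≤ 𝐍[zpowers w] → Nat.card Y ≤ 2

theorem Cfg.small (h : Cfg J) {r : ℕ} (hW : WH r J) (h8 : 8 ∣ Nat.card J) :
    ∃ R : Subgroup L, Loc.ZC.Small R ∧ Syl 2 (R ⊓ J) J ∧ ∀ x ∈ R, x * x ∈ J := by
  have := Fact.mk hW.pr
  obtain ⟨w, t, hw, e⟩ := hW.ex
  obtain ⟨t', -, ⟨j, hj⟩, e'⟩ := exists_two (congrArg Subtype.val e)
  rw [← Subgroup.orderOf_coe] at hw
  have ho : Odd (orderOf (w : L)) := hw ▸ hW.pr.odd_of_ne_two hW.odd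
  obtain ⟨s, hs, c1, c2⟩ := h.B' w.2 ho (fun e => hW.pr.one_lt.ne (by rw [← hw, e, orderOf_one]))
    hj e'
  have hR := mem_RI w.2 ho c1 c2 e'
  have s2 : s ^ 2 ^ 1 = 1 := by rw [pow_one, pow_two, sq_two hs]
  obtain ⟨R, h1, h2⟩ := Syl.exists_ge (pg_zp s2) (le_sup_right : zpowers s ≤ J ⊔ zpowers s)
  have h3 := h2.inf le_sup_left (norm_normal _ J)
  have hi : J.relIndex (J ⊔ zpowers s) ≤ 2 := by
    rw [relIndex_sup_left, ← hs, ← Nat.card_zpowers]
    exact Nat.le_of_dvd Nat.card_pos (relIndex_dvd_card _ _)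
  set Y := (R ⊓ centralizer {s}) ⊓ J with hY
  have hY2 : IsPGroup 2 Y := h2.pg.to_le (inf_le_left.trans inf_le_left)
  obtain ⟨a, ha⟩ := IsPGroup.iff_card.1 hY2
  have := hY2.isNilpotent
  obtain ⟨P, p1, p2, p3, p4⟩ := GT.CopAct.exists_invariant_sylowIn (A := Y) (K := RI J s)
    (inf_le_left.trans (inf_le_right.trans norm_RI))
    (ha ▸ (Nat.coprime_two_left.2 (h.A s hs).odd).pow_left a) (Or.inl inferInstance) r
  have pJ : P ≤ J := p1.trans (RG_le.trans inf_le_left)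
  have hP : Nat.card P = r := by
    obtain ⟨k, hk⟩ := IsPGroup.iff_card.1 p2
    have a1 := (P.subgroupOf (RI J s)).card_mul_index
    rw [Nat.card_congr (subgroupOfEquivOfLe p1).toEquiv] at a1
    have a2 := (hW.pr.dvd_mul.1 (a1 ▸ hw ▸ orderOf_dvd_natCard _ hR)).resolve_right p3
    have a3 := card_dvd_of_le pJ
    rw [hk] at a2 a3 ⊢
    rcases k with _ | _ | k
    · exact absurd (Nat.dvd_one.1 a2) hW.pr.one_lt.ne'
    · exact pow_one r
    · exact absurd ((pow_dvd_pow r (by omega)).trans a3) hW.sq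
  obtain ⟨x, hx⟩ := exists_prime_orderOf_dvd_card' (G := P) r hP.symm.dvd
  rw [← Subgroup.orderOf_coe] at hx
  have hPx : zpowers (x : L) = P :=
    eq_of_le_of_card_ge (zpowers_le.2 x.2) (by rw [Nat.card_zpowers, hx, hP])
  have h4 : Nat.card Y ≤ 2 := by
    rw [← Nat.card_congr (subgroupOfEquivOfLe (inf_le_right : Y ≤ J)).toEquiv]
    refine hW.le ⟨x, pJ x.2⟩ _ (by rwa [← Subgroup.orderOf_coe]) hY2.comap_subtype ?_
    have : zpowers (⟨x, pJ x.2⟩ : J) = P.subgroupOf J := by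
      rw [← map_subtype_inj, MonoidHom.map_zpowers, map_subgroupOf_eq_of_le pJ]
      exact hPx
    rw [this, norm_subgroupOf pJ]
    exact fun y hy => p4 hy
  refine ⟨R, Loc.ZC.small_of_card h2.pg ?_ (h1 (mem_zpowers s)) ?_, h3, fun x hx => ?_⟩
  · obtain ⟨T, t1, -⟩ := h3.exists_sylow
    have a1 := T.pow_dvd_card_of_pow_dvd_card (n := 3) h8
    rw [t1, Nat.card_congr (subgroupOfEquivOfLe inf_le_right).toEquiv] at a1
    exact lt_of_lt_of_le (by norm_num) ((Nat.le_of_dvd Nat.card_pos a1).trans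
      (card_le_of_le inf_le_left))
  · have a1 := (J.subgroupOf (R ⊓ centralizer {s})).card_mul_index
    rw [← inf_subgroupOf_left, Nat.card_congr (subgroupOfEquivOfLe inf_le_left).toEquiv,
      inf_subgroupOf_left, ← relIndex] at a1
    have a2 := (relIndex_le_of_le_right (H := J) (inf_le_left.trans h2.le :
      R ⊓ centralizer {s} ≤ J ⊔ zpowers s) index_ne_zero_of_finite).trans hi
    exact a1 ▸ Nat.mul_le_mul h4 a2
  · obtain ⟨a, ha, _, ⟨n, rfl⟩, rfl⟩ := (mem_sup_norm (norm_normal _ J)).1 (h2.le hx)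
    have : s ^ n * s ^ n = 1 := by rw [← (Commute.refl s).mul_zpow, sq_two hs, one_zpow]
    rw [show a * s ^ n * (a * s ^ n) = a * (s ^ n * a * (s ^ n)⁻¹) * (s ^ n * s ^ n) by group, this,
      mul_one]
    exact mul_mem ha (Normal.conj_mem inferInstance a ha _)

end Cfsg.Agent.R2L
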