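import Mathlib
import Cfsg.Agent.R2L.Ind
import Cfsg.Agent.PN4.Zas

/-! The obstruction to `Cfg` for groups like `PSL₂(q)`, `q` odd. -/

set_option autoImplicit false
set_option linter.unusedSectionVars false

namespace Cfsg.Agent.R2L

open Subgroup Cfsg.Agent.GT.Tr Cfsg.Agent.Loc.Mss Cfsg.Agent.PN4

universe u

variable {L : Type u} [Group L] [Finite L] {J : Subgroup L} [J.Normal] {p : ℕ} [hp : Fact p.Prime]

local notation "φ" => (MulAut.conjNormal : L →* MulAut J)

theorem odd_of_mem (h : Zs p J) {P : Sylow p J} {y : J} (hy : y ∈ P) : Odd (orderOf (y : L)) := by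
  obtain ⟨k, hk⟩ := pg_iff.1 P.2 y hy
  rw [Subgroup.orderOf_coe]
  exact Odd.of_dvd_nat (hp.out.odd_of_ne_two h.odd).pow (orderOf_dvd_of_pow_eq_one hk)

theorem phi_sq {t : L} (ht : t * t = 1) (x : J) : φ t (φ t x) = x := by
  rw [← MulAut.mul_apply, ← map_mul, ht, map_one, MulAut.one_apply]

theorem phi_fix {s : L} {x : J} : φ s x = x ↔ Commute s x := by
  rw [Subtype.ext_iff, MulAut.conjNormal_apply, mul_inv_eq_iff_eq_mul]
  rfl

theorem exists_ne_one (hd : p ∣ Nat.card J) (U : Sylow p J) : ∃ w ∈ U, w ≠ 1 := by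
  by_contra e
  push Not at e
  exact U.ne_bot_of_dvd_card hd ((eq_bot_iff_forall _).2 e)

theorem Cfg.z1 (c : Cfg J) (h : Zs p J) (hd : p ∣ Nat.card J) {t : L} (ht : t * t = 1)
    {U : Sylow p J} (τU : φ t • U = U) (h0 : ∀ y ∈ U, φ t y = y → y = 1) : False := by
  set τ := φ t with hτ
  have τ1 : ∀ x, τ (τ x) = x := phi_sq ht
  have τU' : ∀ y ∈ U, τ y = y⁻¹ := fun y hy => h.inv τ1 τU h0 hy
  obtain ⟨w, hwU, hw1⟩ := exists_ne_one hd U
  have tw : t * w * t⁻¹ = (w : L)⁻¹ := congrArg Subtype.val (τU' w hwU)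
  obtain ⟨s, hs, c1, c2⟩ := c.B' w.2 (odd_of_mem h hwU) (fun e => hw1 (Subtype.ext e)) (k := 1)
    (by rwa [pow_one, pow_two]) tw
  set σ := φ s with hσ'
  have h1 : ∀ x, σ (σ x) = x := phi_sq (sq_two hs)
  have hσ : σ w = w := phi_fix.2 c1
  have σU : σ • U = U := h.fix hwU (hσ.symm ▸ hwU) hw1
  obtain ⟨Q, hQ, τQ⟩ := h.exists_fix τ1 τU
  have τQ' : ∀ y ∈ Q, τ y = y⁻¹ := fun y hy => h.inv τ1 τQ (fun z hz e => by
    have a : τ • z • U = z • U := by rw [aut_smul_smul, e, τU]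
    by_cases b : z • U = U
    · exact h.semi hQ.symm hz b
    · have d := h.uniq τU' hQ b τQ a
      rw [smul_eq_iff_eq_inv_smul, h.smul_self (inv_mem hz)] at d
      exact absurd d.symm hQ) hy
  have στ : σ * τ = τ * σ := by rw [hσ', hτ, ← map_mul, ← map_mul, c2.eq]
  have σQ : σ • Q = Q := h.uniq τU' hQ (fun e => hQ (by
    rw [← σU] at e
    exact smul_left_cancel σ e)) τQ (by rw [← mul_smul, ← στ, mul_smul, τQ])
  by_cases hA : ∀ y ∈ Q, σ y = y → y = 1
  · have a : ∀ P : Sylow p J, (σ * τ) • P = P := fun P => by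
      by_cases e : P = Q
      · rw [e, mul_smul, τQ, σQ]
      · obtain ⟨v, hv, rfl⟩ := h.trans hQ.symm e
        rw [aut_smul_smul, mul_smul, τU, σU, MulAut.mul_apply, τQ' v hv, map_inv,
          h.inv h1 σQ hA hv, inv_inv]
    have b := a (w • Q)
    rw [aut_smul_smul, a, MulAut.mul_apply, τU' w hwU, map_inv, hσ, inv_smul_eq_iff,
      ← mul_smul] at b
    exact hw1 (h.eq_one hwU (h.semi hQ (mul_mem hwU hwU) b.symm))
  push Not at hA
  obtain ⟨y, hy, hσy, hy1⟩ := hA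
  set K := (RI J s).subgroupOf J with hK
  have hwK : w ∈ K := mem_RI w.2 (odd_of_mem h hwU) c1 c2 tw
  have hyK : y ∈ K := mem_RI y.2 (odd_of_mem h hy) (phi_fix.1 hσy) c2
    (congrArg Subtype.val (τQ' y hy))
  obtain ⟨R, h4, h5⟩ := Syl.exists_ge (U.2.to_le (zpowers_le.2 hwU)) (zpowers_le.2 hwK)
  obtain ⟨P, hP⟩ := h5.pg.exists_le_sylow
  obtain rfl : U = P := h.ti hwU (hP (h4 (mem_zpowers w))) hw1
  obtain ⟨k, hk, hky⟩ := h5.conj_le (Q.2.to_le (zpowers_le.2 hy)) (zpowers_le.2 hyK)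
  have hkQ : k • Q = U := h.ti (mem_aut_smul.2 hy) (hP (hky (conj_mem_cj (mem_zpowers y))))
    (by simpa using hy1)
  let f : MulAction.orbit K Q → MulAction.orbit K Q := fun P => ⟨τ • P.1, by
    obtain ⟨_, c, rfl⟩ := P
    refine ⟨⟨τ c, conj_mem_of_norm (norm_RI (mem_centralizer_singleton_iff.2 c2.symm)) c.2⟩, ?_⟩
    change τ c • Q = τ • (c : J) • Q
    rw [aut_smul_smul, τQ]⟩
  have a := card_mod_two f fun P => Subtype.ext (by
    change τ • τ • P.1 = P.1
    rw [← mul_smul, show τ * τ = 1 from MulEquiv.ext τ1, one_smul])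
  have b : Nat.card {P // f P = P} = 2 := Nat.card_eq_two_iff.2
    ⟨⟨⟨Q, MulAction.mem_orbit_self Q⟩, Subtype.ext τQ⟩, ⟨⟨U, ⟨k, hk⟩, hkQ⟩, Subtype.ext τU⟩,
      fun e => hQ (congrArg (fun x => x.1.1) e), Set.eq_univ_of_forall fun P => by
        by_cases e : P.1.1 = U
        · exact Or.inr (Subtype.ext (Subtype.ext e))
        · exact Or.inl (Subtype.ext (Subtype.ext
            (h.uniq τU' hQ e τQ (congrArg Subtype.val P.2))))⟩
  have c' : Nat.card (MulAction.orbit K Q) ∣ Nat.card K := by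
    rw [Nat.card_congr (MulAction.orbitEquivQuotientStabilizer K Q)]
    exact card_quotient_dvd_card _
  have d : ¬ 2 ∣ Nat.card K := not_dvd_card_of_forall_coprime fun x hx => by
    rw [← Subgroup.orderOf_coe]
    exact Nat.coprime_two_right.2 (c.A s hs x hx)
  rw [b] at a
  exact d (((Nat.modEq_zero_iff_dvd.1 (a.trans (by decide)))).trans c')

/-- further facts on `PSL₂(q)` -/
structure Zt (p : ℕ) (X : Type*) [Group X] : Prop extends Zs p X where
  dvd : p ∣ Nat.card X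
  real : ∀ g : X, (orderOf g).Coprime p → IsConj g g⁻¹
  two : ∀ P : Sylow p X, ∀ u ∈ P, ∀ v ∈ P, u ≠ 1 → v ≠ 1 →
    IsConj u v ∨ IsConj u v⁻¹ ∨ IsConj u u⁻¹
  tor : ∃ (P Q : Sylow p X) (w : X), Q ≠ P ∧ w ≠ 1 ∧ w • P = P ∧ w • Q = Q

theorem phi_coe (g : J) (P : Sylow p J) : φ (g : L) • P = g • P := by
  rw [Sylow.smul_def, ← MulAut.conjNormal_val]

theorem smul_of_mem {X : Type*} [Group X] {P : Sylow p X} {g x : X} (h : g • P = P)
    (hx : x ∈ zpowers g) : x • P = P :=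
  (zpowers_le (H := MulAction.stabilizer X P)).2 h hx

theorem Cfg.no_two (c : Cfg J) (h : Zt p J) {P : Sylow p J} {g : J} {k : ℕ} (hk : g ^ 2 ^ k = 1)
    (hg : g • P = P) : g = 1 := by
  by_contra g1
  obtain ⟨t, ht, t2⟩ := exists_two_pow fun e => g1 (eq_one_of_odd e hk)
  refine c.z1 h.toZs h.dvd (t := t) (congrArg Subtype.val (sq_two t2))
    ((phi_coe t P).trans (smul_of_mem hg ht)) fun y hy e => ?_
  by_contra y1
  exact ne_two t2 (h.eq_one ((h.cen P y hy y1).le (mem_centralizer_singleton_iff.2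
    (Subtype.ext (phi_fix.1 e)))) (sq_two t2))

theorem Cfg.z2 (c : Cfg J) (h : Zt p J) [IsSimpleGroup J] (hJ : ¬ Group.IsSolvable J) {s : L}
    (hs : orderOf s = 2) {P : Sylow p J} (hP : φ s • P = P) : False := by
  have h1 := phi_sq (J := J) (sq_two hs)
  have nr : ∀ (R : Sylow p J), ∀ u ∈ R, u ≠ 1 → ¬ IsConj u u⁻¹ := fun R u hu u1 e => by
    obtain ⟨g, hg⟩ := isConj_iff.1 e
    obtain ⟨a, -, ⟨j, hj⟩, ha⟩ := exists_two hg
    have := c.no_two h hj (h.fix (α := MulAut.conj a) hu (by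
      rw [MulAut.conj_apply, ha]; exact inv_mem hu) u1)
    rw [this, one_mul, inv_one, mul_one] at ha
    exact u1 (h.eq_one hu (mul_eq_one_iff_eq_inv.2 ha))
  have key : ∀ R : Sylow p J, φ s • R = R → ∀ x ∈ R, φ s x = x := fun R hR x hx => by
    obtain ⟨u, hu, e, u1⟩ : ∃ u ∈ R, φ s u = u ∧ u ≠ 1 := by
      by_contra e
      push Not at e
      exact c.z1 h.toZs h.dvd (sq_two hs) hR e
    have a : φ s x ∈ R := hR ▸ mem_aut_smul.2 hx
    have hv : x⁻¹ * φ s x ∈ R := mul_mem (inv_mem hx) a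
    have b : φ s (x⁻¹ * φ s x) = (x⁻¹ * φ s x)⁻¹ := by
      rw [map_mul, map_inv, h1, mul_inv_rev, inv_inv]
    by_contra e'
    have v1 : x⁻¹ * φ s x ≠ 1 := fun e => e' (inv_mul_eq_one.1 e).symm
    generalize x⁻¹ * φ s x = v at *
    rcases h.two R u hu v hv u1 v1 with d | d | d
    · have := (φ s).toMonoidHom.map_isConj d
      exact nr R v hv v1 (d.symm.trans (by simpa [e, b] using this))
    · have := (φ s).toMonoidHom.map_isConj d
      exact nr R v hv v1 (IsConj.trans (by simpa [e, b] using this.symm) d)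
    · exact nr R u hu u1 d
  obtain ⟨Q, hQ, hQ'⟩ := h.exists_fix h1 hP
  have all : ∀ R : Sylow p J, φ s • R = R := fun R => by
    by_cases e : R = P
    · rw [e, hP]
    · obtain ⟨v, hv, rfl⟩ := h.trans hQ e
      rw [aut_smul_smul, key P hP v hv, hQ']
  have h2 : normalClosure (P : Set J) ≤ fx (φ s) := (closure_le _).2 fun x hx => by
    obtain ⟨a, ha, e⟩ := Group.mem_conjugatesOfSet_iff.1 hx
    obtain ⟨g, rfl⟩ := isConj_iff.1 e
    exact key _ (all (g • P)) _ (mem_aut_smul.2 ha)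
  obtain ⟨w, hw, w1⟩ := exists_ne_one h.dvd P
  rcases IsSimpleGroup.eq_bot_or_eq_top_of_normal (normalClosure (P : Set J)) inferInstance with
    e | e
  · exact w1 (mem_bot.1 (e.le (subset_normalClosure hw)))
  · have h3 := c.solv hs
    rw [inf_eq_left.2 fun y hy => mem_centralizer_singleton_iff.2
      (phi_fix.1 (h2 (e.ge (mem_top (⟨y, hy⟩ : J))))).symm] at h3
    exact hJ h3

theorem Zt.not_cfg (h : Zt p J) [IsSimpleGroup J] (hJ : ¬ Group.IsSolvable J) : ¬ Cfg J := by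
  intro c
  obtain ⟨P, Q, w, hQ, w1, wP, wQ⟩ := h.tor
  have fix3 : ∀ R : Sylow p J, w • R = R → R = P ∨ R = Q := fun R hR => by
    refine (eq_or_ne R P).imp_right fun e => ?_
    obtain ⟨v, hv, rfl⟩ := h.trans hQ e
    have a : v⁻¹ * (w * v * w⁻¹) = 1 := h.semi hQ (mul_mem (inv_mem hv)
      (wP ▸ mem_aut_smul.2 hv)) (by
        rw [mul_smul, mul_smul, mul_smul, inv_smul_eq_iff.2 wQ.symm, hR, inv_smul_smul])
    by_cases v1 : v = 1
    · rw [v1, one_smul]
    · rw [inv_mul_eq_one, eq_mul_inv_iff_mul_eq] at a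
      exact absurd (h.semi hQ ((h.cen P v hv v1).le (mem_centralizer_singleton_iff.2 a.symm)) wQ) w1
  have ho : Odd (orderOf w) := by
    by_contra e
    obtain ⟨t, ht, t2⟩ := exists_two_pow e
    exact ne_two t2 (c.no_two h (k := 1) (by rw [pow_one, pow_two, sq_two t2]) (smul_of_mem wP ht))
  have hc : (orderOf w).Coprime p := by
    refine (hp.out.coprime_iff_not_dvd.2 fun e => ?_).symm
    obtain ⟨x, hx⟩ := exists_prime_orderOf_dvd_card' (G := zpowers w) p (by rwa [Nat.card_zpowers])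
    rw [← Subgroup.orderOf_coe] at hx
    obtain ⟨R, hR⟩ := (IsPGroup.of_card (p := p) (n := 1) (G := zpowers (x : J))
      (by rw [Nat.card_zpowers, hx, pow_one])).exists_le_sylow
    have : (x : J) = 1 := by
      by_cases e : P = R
      · exact h.semi (e ▸ hQ) (hR (mem_zpowers _)) (smul_of_mem wQ x.2)
      · exact h.semi e (hR (mem_zpowers _)) (smul_of_mem wP x.2)
    rw [this, orderOf_one] at hx
    exact hp.out.one_lt.ne hx
  obtain ⟨g, hg⟩ := isConj_iff.1 (h.real w hc)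
  obtain ⟨t, -, ⟨j, hj⟩, ht⟩ := exists_two hg
  have t1 : t ≠ 1 := fun e => w1 (eq_one_of_inv ho (by rw [← ht, e]; group))
  have tf : ∀ R : Sylow p J, w • R = R → w • t • R = t • R := fun R hR => by
    rw [eq_comm, ← inv_smul_eq_iff, ← ht, ← mul_smul, inv_mul_cancel_right, mul_smul, hR]
  have tP : t • P = Q := (fix3 _ (tf P wP)).resolve_left fun e => t1 (c.no_two h hj e)
  have tQ : t • Q = P := (fix3 _ (tf Q wQ)).resolve_right fun e => t1 (c.no_two h hj e)
  have tt : t * t = 1 := c.no_two h (k := j) (P := P)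
    (by rw [(Commute.refl t).mul_pow, hj, mul_one]) (by rw [mul_smul, tP, tQ])
  obtain ⟨s, hs, c1, c2⟩ := c.B' w.2 (by rwa [Subgroup.orderOf_coe]) (fun e => w1 (Subtype.ext e))
    (t := t) (k := j) (congrArg Subtype.val hj) (congrArg Subtype.val ht)
  have sf : ∀ R : Sylow p J, w • R = R → w • φ s • R = φ s • R := fun R hR => by
    conv_rhs => rw [← hR, aut_smul_smul, phi_fix.2 c1]
  rcases fix3 _ (sf Q wQ) with e | e
  · refine c.z2 h hJ (s := s * t) (P := P) (ord_two ?_ fun e => ?_)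
      (by rw [map_mul, mul_smul, phi_coe, tP, e])
    · rw [c2.symm.mul_mul_mul_comm, sq_two hs, one_mul]
      exact congrArg Subtype.val tt
    · have a : Commute (t : L) w := by rw [eq_inv_of_mul_eq_one_right e]; exact c1.inv_left
      have b : (t : L) * w * (t : L)⁻¹ = (w : L)⁻¹ := congrArg Subtype.val ht
      rw [a.eq, mul_inv_cancel_right] at b
      exact w1 (eq_one_of_inv ho (Subtype.ext b.symm))
  · exact c.z2 h hJ hs e

end Cfsg.Agent.R2L
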