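import Mathlib
import Cfsg.Agent.R2L.Zas
import Cfsg.Agent.Cl.PSL2Class
import Cfsg.Agent.Cl.PSL2Pairs
import Cfsg.Agent.Cl.LinearBasic

/-! `PSL₂(q)`, `q > 3` odd, does not occur in the configuration `Cfg`. -/

set_option autoImplicit false
set_option linter.unusedSectionVars false

namespace Cfsg.Agent.R2L

open Subgroup Cfsg.Agent.PN4 Cfsg.Agent.Cl.L2
open scoped MatrixGroups

variable {X Y : Type*} [Group X] [Group Y] [Finite X] [Finite Y] {p : ℕ} [hp : Fact p.Prime]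

/-- the image of a Sylow subgroup under an isomorphism -/
noncomputable def sylM (e : X ≃* Y) (P : Sylow p X) : Sylow p Y :=
  P.mapSurjective (f := e.toMonoidHom) e.surjective

theorem mem_sylM (e : X ≃* Y) {P : Sylow p X} {y : Y} : y ∈ sylM e P ↔ e.symm y ∈ P :=
  ⟨fun ⟨x, hx, h⟩ => by rw [← h]; simpa using hx, fun h => ⟨_, h, by simp⟩⟩

theorem sylM_symm (e : X ≃* Y) (P : Sylow p X) : sylM e.symm (sylM e P) = P :=
  Sylow.ext (Subgroup.ext fun x => (mem_sylM _).trans ((mem_sylM _).trans (by simp; rfl)))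

theorem mem_smul_iff {g x : X} {P : Sylow p X} : x ∈ g • P ↔ g⁻¹ * x * g ∈ P := by
  rw [Sylow.smul_def, ← mem_aut_smul (α := MulAut.conj g) (x := g⁻¹ * x * g), MulAut.conj_apply,
    show g * (g⁻¹ * x * g) * g⁻¹ = x by group]

theorem sylM_smul (e : X ≃* Y) (g : X) (P : Sylow p X) : sylM e (g • P) = e g • sylM e P :=
  Sylow.ext (Subgroup.ext fun x => ((mem_sylM _).trans mem_smul_iff).trans
    (mem_smul_iff.trans ((mem_sylM _).trans (by simp))).symm)

theorem Zt.of_equiv (h : Zt p Y) (e : X ≃* Y) : Zt p X := by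
  have hm : ∀ {P : Sylow p X} {x : X}, e x ∈ sylM e P ↔ x ∈ P := by simp [mem_sylM]
  have hc : ∀ {x y : X}, IsConj (e x) (e y) → IsConj x y := fun h => by
    simpa using e.symm.toMonoidHom.map_isConj h
  refine ⟨⟨h.odd, fun P y hy h1 => Subgroup.ext fun x => ?_, fun P => ?_⟩,
    Nat.card_congr e.toEquiv ▸ h.dvd, fun g hg => hc ?_, fun P u hu v hv u1 v1 => ?_, ?_⟩
  · have := Subgroup.ext_iff.1 (h.cen _ _ (hm.2 hy) (by simpa using h1)) (e x)
    rw [mem_centralizer_singleton_iff, ← map_mul, ← map_mul, e.injective.eq_iff] at this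
    exact mem_centralizer_singleton_iff.trans (this.trans hm)
  · rw [Nat.card_congr (⟨sylM e, sylM e.symm, sylM_symm e, sylM_symm e.symm⟩ :
      Sylow p X ≃ Sylow p Y), h.num (sylM e P)]
    exact congrArg (· + 1) (card_map_of_injective e.injective)
  · rw [map_inv]
    exact h.real _ (by rwa [MulEquiv.orderOf_eq])
  · refine (h.two _ _ (hm.2 hu) _ (hm.2 hv) (by simpa using u1) (by simpa using v1)).imp hc
      (Or.imp (fun a => hc ?_) fun a => hc ?_) <;> rwa [map_inv]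
  · obtain ⟨P, Q, w, h1, h2, h3, h4⟩ := h.tor
    exact ⟨sylM e.symm P, sylM e.symm Q, e.symm w, fun a => h1 (by
      rw [← sylM_symm e.symm Q, a, sylM_symm e.symm P]), by simpa using h2,
      by rw [← sylM_smul, h3], by rw [← sylM_smul, h4]⟩

variable {F : Type*} [Field F] [Finite F]

theorem conj_uni {c : PGL(2, F)} {a b : F} (ha : a ≠ 0) (hs : IsSquare a) {u v : PSL(2, F)}
    (hu : emb u = c * aff 1 b * c⁻¹) (hv : emb v = c * aff 1 (a * b) * c⁻¹) : IsConj u v := by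
  obtain ⟨g, hg⟩ := exists_emb_of_mem (psl_normal.conj_mem _ ((aff_mem_psl ha 0).2 hs) c)
  refine isConj_iff.2 ⟨g, emb_injective ?_⟩
  rw [map_mul, map_mul, map_inv, hg, hu, hv, ← aff_conj_one ha 0]
  group

theorem zt_psl (p : ℕ) [hp : Fact p.Prime] [CharP F p] (h2 : p ≠ 2) (h3 : 3 < Nat.card F) :
    Zt p PSL(2, F) := by
  refine ⟨⟨h2, fun P y hy h1 => ?_, fun P => ?_⟩, ?_, fun g hg => ?_, fun P u hu v hv u1 v1 => ?_, ?_⟩
  · obtain ⟨x, hx⟩ := exists_sylow_eq_uniS p P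
    have hy' : y ∈ uniS x := hx ▸ hy
    rw [hx, centralizer_eq_torS (Or.inl (mem_uniS.1 hy').2), torS_eq_uniS hy' h1]
  · obtain ⟨x, hx⟩ := exists_sylow_eq_uniS p P
    rw [Sylow.card_eq_index_normalizer P]
    change (normalizer ((P : Subgroup PSL(2, F)) : Set PSL(2, F))).index =
      Nat.card (P : Subgroup PSL(2, F)) + 1
    rw [hx, normalizer_uniS, index_stabilizerS, card_uniS]
  · exact (char_dvd_card (F := F) p).trans
      (card_uniS (inf : P1 F) ▸ card_subgroup_dvd_card (uniS (inf : P1 F)))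
  · by_cases h1 : g = 1
    · simp [h1]
    refine isConjS_of_tau (fun e => ?_) (by rw [map_inv, tau_inv])
    obtain ⟨x, hx⟩ := exists_mem_uniS e
    rw [orderOf_of_mem_uniS p hx h1, Nat.coprime_self] at hg
    exact hp.out.one_lt.ne' hg
  · obtain ⟨x, hx⟩ := exists_sylow_eq_uniS p P
    obtain ⟨c, rfl⟩ := exists_smul_one x
    obtain ⟨a, ha⟩ := mem_uni_smul_inf.1 (mem_uniS'.1 (hx.le hu))
    obtain ⟨b, hb⟩ := mem_uni_smul_inf.1 (mem_uniS'.1 (hx.le hv))
    have nz : ∀ {a : F} {u : PSL(2, F)}, emb u = c * aff 1 a * c⁻¹ → u ≠ 1 → a ≠ 0 :=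
      fun h h1 e => h1 (emb_injective (by rw [h, e, aff_one_zero, map_one]; group))
    have iv : ∀ {a : F} {u : PSL(2, F)}, emb u = c * aff 1 a * c⁻¹ →
        emb u⁻¹ = c * aff 1 (-a) * c⁻¹ := fun h => by
      rw [map_inv, h, mul_inv_rev, mul_inv_rev, inv_inv, aff_inv one_ne_zero, inv_one, one_mul,
        mul_assoc]
    have a0 := nz ha u1
    have b0 := nz hb v1
    by_cases h1 : IsSquare (b / a)
    · exact Or.inl (conj_uni (div_ne_zero b0 a0) h1 ha (by rwa [div_mul_cancel₀ _ a0]))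
    by_cases h4 : IsSquare (-1 : F)
    · exact Or.inr (Or.inr (conj_uni (by simp) h4 ha (by rw [iv ha, neg_one_mul])))
    · exact Or.inr (Or.inl (conj_uni (by simp [a0, b0]) (isSquare_mul_of_not h4 h1) ha
        (by rw [iv hb, mul_assoc (-1 : F), div_mul_cancel₀ _ a0, neg_one_mul])))
  · obtain ⟨P, hP⟩ := exists_uniS_eq_sylow (F := F) p inf
    obtain ⟨Q, hQ⟩ := exists_uniS_eq_sylow (F := F) p (pt 0)
    obtain ⟨a, a0, a1⟩ := Cl.exists_sq_ne_one_of_four_le_card (F := F) h3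
    rw [pow_two] at a1
    have b0 := mul_ne_zero a0 a0
    obtain ⟨w, hw⟩ := exists_emb_of_mem ((aff_mem_psl b0 0).2 ⟨a, rfl⟩)
    refine ⟨P, Q, w, fun e => pt_ne_inf 0 (uniS_injective (hQ.symm.trans (e ▸ hP))), fun e => a1 ?_,
      Sylow.smul_eq_iff_mem_normalizer.2 ?_, Sylow.smul_eq_iff_mem_normalizer.2 ?_⟩
    · rw [e, map_one, eq_comm, aff_eq_one_iff b0] at hw
      exact hw.1
    · change w ∈ normalizer ((P : Subgroup PSL(2, F)) : Set PSL(2, F))
      rw [hP, normalizer_uniS, MulAction.mem_stabilizer_iff, ← emb_smul, hw, aff_smul_inf b0]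
    · change w ∈ normalizer ((Q : Subgroup PSL(2, F)) : Set PSL(2, F))
      rw [hQ, normalizer_uniS, MulAction.mem_stabilizer_iff, ← emb_smul, hw, aff_smul_pt b0]
      simp

theorem not_l2 {L : Type*} [Group L] [Finite L] {J : Subgroup L} [J.Normal] [IsSimpleGroup J]
    (hJ : ¬ Group.IsSolvable J) {F : Type*} [Field F] [Fintype F] (h2 : Odd (Fintype.card F))
    (h3 : 3 < Fintype.card F) (e : J ≃* PSL(2, F)) : ¬ Cfg J := by
  obtain ⟨p, hc⟩ := CharP.exists F
  obtain ⟨n, hp, hn⟩ := FiniteField.card F p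
  have := Fact.mk hp
  refine ((zt_psl p (fun e => ?_) (by rwa [Nat.card_eq_fintype_card])).of_equiv e).not_cfg hJ
  rw [hn, e, Nat.odd_pow_iff n.ne_zero] at h2
  exact absurd h2 (by decide)

end Cfsg.Agent.R2L
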