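import Mathlib
import Cfsg.Agent.R2L.Ind
import Cfsg.Agent.Fus.SpFour
import Cfsg.Agent.Cl.PSL2Solv
import Cfsg.Agent.Sym.Aut

/-! Model facts for S3860: `L₃(2ⁿ)`, `PSp₄(2ⁿ)`, `A₇`. -/

set_option autoImplicit false

namespace Cfsg.Agent.R2L

open Subgroup Matrix
open scoped MatrixGroups

section L3

variable {F : Type*} [Field F]

/-- the elementary matrix `E₁₃` -/
def e13 (F : Type*) [Field F] : Matrix (Fin 3) (Fin 3) F := !![0, 0, 1; 0, 0, 0; 0, 0, 0]

theorem e13_sq : e13 F * e13 F = 0 := by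
  ext i j
  fin_cases i <;> fin_cases j <;> simp [e13, Matrix.mul_apply, Fin.sum_univ_three]

/-- the root subgroup `1 + a E₁₃` -/
def x13 (F : Type*) [Field F] : Multiplicative F →* SL(3, F) where
  toFun a := ⟨1 + a.toAdd • e13 F, by
    simp [Matrix.det_fin_three, e13]⟩
  map_one' := Subtype.ext (by simp)
  map_mul' a b := Subtype.ext (by
    change _ = (1 + a.toAdd • e13 F) * (1 + b.toAdd • e13 F)
    simp only [toAdd_mul, add_smul, mul_add, add_mul, one_mul, mul_one, Matrix.smul_mul,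
      Matrix.mul_smul, e13_sq, smul_zero, add_zero]
    abel)

theorem coe_x13 (a : Multiplicative F) : (x13 F a).1 = 1 + a.toAdd • e13 F := rfl

theorem x13_cen {a : Multiplicative F} (h : x13 F a ∈ center SL(3, F)) : a = 1 := by
  obtain ⟨r, -, hr⟩ := Matrix.SpecialLinearGroup.mem_center_iff.1 h
  have := congrFun (congrFun hr 0) 2
  rw [show ((x13 F a : SL(3, F)) : Matrix (Fin 3) (Fin 3) F) = 1 + a.toAdd • e13 F from rfl] at this
  simp [e13] at this
  exact toAdd_eq_zero.1 this.symm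

theorem cube3 {c : SL(3, F)} (h : c ∈ center SL(3, F)) : c ^ 3 = 1 := by
  obtain ⟨r, hr, e⟩ := Matrix.SpecialLinearGroup.mem_center_iff.1 h
  refine Subtype.ext ?_
  rw [Matrix.SpecialLinearGroup.coe_pow, ← e, ← map_pow]
  simpa using congrArg (scalar (Fin 3)) hr

theorem l3_cen [Fintype F] [CharP F 2] : ∃ (t : PSL(3, F)) (E : Subgroup PSL(3, F)),
    orderOf t = 2 ∧ Nat.card F ≤ Nat.card E ∧ (∀ x ∈ E, x * x = 1) ∧
      ∀ x ∈ E, ∀ g, Commute g t → Commute g x := by
  let π := QuotientGroup.mk' (center SL(3, F))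
  have hsq : ∀ a : Multiplicative F, x13 F a * x13 F a = 1 := fun a => by
    rw [← map_mul, show a * a = 1 from toAdd_eq_zero.1 (by
      rw [toAdd_mul]; exact CharTwo.add_self_eq_zero _), map_one]
  have hinj : Function.Injective (π.comp (x13 F)) := (injective_iff_map_eq_one _).2 fun a ha =>
    x13_cen ((QuotientGroup.eq_one_iff _).1 ha)
  refine ⟨π (x13 F (Multiplicative.ofAdd 1)), (π.comp (x13 F)).range, ord_two ?_ fun h => ?_,
    ?_, ?_, ?_⟩
  · rw [← map_mul, hsq, map_one]
  · exact one_ne_zero (ofAdd_eq_one.1 (x13_cen ((QuotientGroup.eq_one_iff _).1 h)))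
  · exact (Nat.card_congr (MonoidHom.ofInjective hinj).toEquiv).le
  · rintro _ ⟨a, rfl⟩
    rw [MonoidHom.comp_apply, ← map_mul, hsq, map_one]
  · rintro _ ⟨a, rfl⟩ g hg
    obtain ⟨A, rfl⟩ := QuotientGroup.mk'_surjective _ g
    set T := x13 F (Multiplicative.ofAdd 1)
    have h1 : A * T * A⁻¹ * T ∈ center SL(3, F) := (QuotientGroup.eq_one_iff _).1 (by
      change π _ = 1
      rw [map_mul, map_mul, map_mul, map_inv, hg.eq, mul_inv_cancel_right, ← map_mul, hsq, map_one])
    have h2 : (A * T * A⁻¹ * T) ^ 2 = 1 := by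
      have h3 := mem_center_iff.1 h1 T
      have h4 : T * T = 1 := hsq _
      calc (A * T * A⁻¹ * T) ^ 2 = A * T * A⁻¹ * (T * (A * T * A⁻¹ * T)) := by
            rw [pow_two]; group
        _ = A * T * A⁻¹ * (A * T * A⁻¹ * (T * T)) := by rw [h3]; group
        _ = A * (T * T) * A⁻¹ * (T * T) := by simp only [mul_assoc, inv_mul_cancel_left]
        _ = 1 := by simp [h4]
    have h5 : A * T * A⁻¹ * T = 1 := by
      have := cube3 h1
      rwa [pow_succ, h2, one_mul] at this
    have h6 : A * T = T * A := by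
      have h4 : T * T = 1 := hsq _
      calc A * T = (A * T * A⁻¹ * T) * T * A := by
            rw [mul_assoc _ T T, h4]; group
        _ = T * A := by rw [h5, one_mul]
    have h7 : A.1 * e13 F = e13 F * A.1 := by
      have := congrArg Subtype.val h6
      simp only [Matrix.SpecialLinearGroup.coe_mul, T, coe_x13, toAdd_ofAdd, one_smul, mul_add,
        add_mul, mul_one, one_mul] at this
      exact add_left_cancel this
    have h8 : Commute A (x13 F a) := Subtype.ext (by
      simp only [Matrix.SpecialLinearGroup.coe_mul, coe_x13, mul_add, add_mul, mul_one, one_mul,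
        Matrix.mul_smul, Matrix.smul_mul, h7])
    exact h8.map π

end L3

section Sp

open Fus.SP4

theorem psp_cen {F : Type*} [Field F] [Fintype F] [CharP F 2] (h : 4 ≤ Fintype.card F) :
    ∃ v : PSp 2 F, orderOf v = 2 ∧ ¬ Group.IsSolvable (centralizer ({v} : Set (PSp 2 F))) := by
  let π := QuotientGroup.mk' (center (symplecticGroup (Fin 2) F))
  have hneg : (-1 : SL(2, F)) = 1 := Subtype.ext (by
    ext i j
    simp [CharTwo.neg_eq])
  have hinj : Function.Injective (π.comp (io F)) := (injective_iff_map_eq_one _).2 fun a ha => by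
    have h1 : io F a = 1 := by
      rcases (mem_center_iff _).1 ((QuotientGroup.eq_one_iff _).1 ha) with h | h
      · exact h
      · rw [h, hneg]; exact map_one _
    have h2 := congrArg Subtype.val (h1.trans (map_one (io F)).symm)
    change (io F (a.1, a.2)).1 = (io F (1, 1)).1 at h2
    rw [coe_io, coe_io, blk_inj] at h2
    exact Prod.ext (Subtype.ext (congrFun (congrFun h2 0) 0))
      (Subtype.ext (congrFun (congrFun h2 1) 1))
  let u : SL(2, F) := ⟨!![1, 1; 0, 1], by simp⟩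
  refine ⟨π.comp (io F) (u, 1), ord_two ?_ fun e => ?_, fun hs => ?_⟩
  · rw [← map_mul, ← map_one (π.comp (io F))]
    congr 1
    refine Prod.ext (Subtype.ext ?_) (mul_one _)
    change !![(1 : F), 1; 0, 1] * !![1, 1; 0, 1] = 1
    rw [Matrix.mul_fin_two, Matrix.one_fin_two]
    simp [CharTwo.add_self_eq_zero]
  · have := congrFun (congrFun (congrArg (fun x => x.1.1) (hinj (e.trans (map_one _).symm))) 0) 1
    simp [u] at this
  · let f := (π.comp (io F)).comp (MonoidHom.inr SL(2, F) SL(2, F))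
    have h4 : ∀ b, f b ∈ centralizer {π.comp (io F) (u, 1)} := fun b =>
      mem_centralizer_singleton_iff.2 (Commute.map (x := ((1, b) : SL(2, F) × SL(2, F)))
        (y := (u, 1)) (by simp [Commute, SemiconjBy]) (π.comp (io F)))
    have h5 : Group.IsSolvable SL(2, F) :=
      Group.isSolvable_of_isSolvable_injective (f := f.codRestrict _ h4) fun x y e => by
        have := hinj (Subtype.ext_iff.1 e)
        exact congrArg Prod.snd this
    exact Cl.L2.not_isSolvable_PSL (F := F) (by rwa [Nat.card_eq_fintype_card]) inferInstance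

end Sp

section Alt

open Equiv

theorem fix_five {σ : Perm (Fin 7)}
    (h1 : σ * (swap 0 4 * swap 0 3 * (swap 0 2 * swap 0 1)) =
      swap 0 4 * swap 0 3 * (swap 0 2 * swap 0 1) * σ)
    (h2 : σ * (swap 1 4 * swap 2 3) = swap 1 4 * swap 2 3 * σ) :
    σ 0 = 0 ∧ σ 1 = 1 ∧ σ 2 = 2 ∧ σ 3 = 3 ∧ σ 4 = 4 := by
  have a : ∀ i, σ ((swap 0 4 * swap 0 3 * (swap 0 2 * swap 0 1) : Perm (Fin 7)) i) =
      (swap 0 4 * swap 0 3 * (swap 0 2 * swap 0 1) : Perm (Fin 7)) (σ i) := fun i =>
    congrArg (fun x : Perm (Fin 7) => x i) h1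
  have b : σ 0 = (swap 1 4 * swap 2 3 : Perm (Fin 7)) (σ 0) :=
    congrArg (fun x : Perm (Fin 7) => x 0) h2
  have a0 : σ 1 = _ := a 0
  have c : σ 0 = 0 := by
    have d : σ 1 ≠ σ 0 := fun e => absurd (σ.injective e) (by decide)
    rw [a0] at d
    revert b d
    generalize σ 0 = k
    revert k
    decide
  have a1 : σ 2 = _ := a 1
  have a2 : σ 3 = _ := a 2
  have a3 : σ 4 = _ := a 3
  rw [c] at a0
  rw [a0] at a1
  rw [a1] at a2
  rw [a2] at a3
  exact ⟨c, a0, a1, a2, a3⟩

/-- a product of two transpositions in the alternating group -/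
def sw2 (a b c d : Fin 7) (h1 : a ≠ b := by decide) (h2 : c ≠ d := by decide) :
    alternatingGroup (Fin 7) :=
  ⟨swap a b * swap c d, by
    rw [Perm.mem_alternatingGroup, map_mul, Perm.sign_swap h1, Perm.sign_swap h2]; simp⟩

theorem not_alt {L : Type*} [Group L] [Finite L] {J : Subgroup L} [J.Normal]
    (e : J ≃* alternatingGroup (Fin 7)) : ¬ Cfg J := fun h => by
  let ι : alternatingGroup (Fin 7) →* L := J.subtype.comp e.symm.toMonoidHom
  have hi : Function.Injective ι := J.subtype_injective.comp e.symm.injective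
  have hm : ∀ g, ι g ∈ J := fun g => (e.symm g).2
  have ho : ∀ (g : alternatingGroup (Fin 7)) (n : ℕ), Odd n → g ^ n = 1 → Odd (orderOf (ι g)) :=
    fun g n h1 h2 => h1.of_dvd_nat (orderOf_dvd_of_pow_eq_one (by rw [← map_pow, h2, map_one]))
  have hv : ∀ w t : alternatingGroup (Fin 7), t * w * t⁻¹ = w⁻¹ →
      ι t * ι w * (ι t)⁻¹ = (ι w)⁻¹ := fun w t h1 => by
    rw [← map_inv, ← map_inv, ← map_mul, ← map_mul, h1]
  obtain ⟨s, hs, c1, c2⟩ := h.B' (w := ι (sw2 0 4 0 3 * sw2 0 2 0 1)) (t := ι (sw2 1 4 2 3)) (hm _)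
    (ho _ 5 (by decide) (by decide)) (fun e => absurd (hi (e.trans (map_one ι).symm)) (by decide))
    (k := 1) (by rw [← map_pow, show sw2 1 4 2 3 ^ 2 ^ 1 = 1 by decide, map_one])
    (hv _ _ (by decide))
  obtain ⟨σ, hσ⟩ := Sym.exists_conj_of_aut_alternating (α := Fin 7) (by simp) (by simp)
    ((e.symm.trans (MulAut.conjNormal s)).trans e)
  have key : ∀ g : alternatingGroup (Fin 7), Commute s (ι g) ↔ σ * g = g * σ := fun g => by
    rw [← mul_inv_eq_iff_eq_mul, ← hσ, Subtype.coe_inj]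
    change _ ↔ e (MulAut.conjNormal s (e.symm g)) = g
    rw [← e.eq_symm_apply, ← Subtype.coe_inj, MulAut.conjNormal_apply, mul_inv_eq_iff_eq_mul]
    rfl
  obtain ⟨f0, f1, f2, f3, f4⟩ := fix_five ((key _).1 c1) ((key _).1 c2)
  have hsw : ∀ a b : Fin 7, σ a = a → σ b = b → Commute σ (swap a b) := fun a b ha hb => by
    have := Equiv.mul_swap_eq_swap_mul σ a b
    rwa [ha, hb] at this
  have hc : ∀ (a b c d : Fin 7) (h1 : a ≠ b) (h2 : c ≠ d), σ a = a → σ b = b → σ c = c → σ d = d →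
      Commute s (ι (sw2 a b c d h1 h2)) := fun a b c d _ _ ha hb hc hd =>
    (key _).2 ((hsw a b ha hb).mul_right (hsw c d hc hd))
  have m1 : ι (sw2 0 2 0 1) ∈ RI J s := mem_RI (hm _) (ho _ 3 (by decide) (by decide))
    (hc _ _ _ _ _ _ f0 f2 f0 f1) (hc 0 1 3 4 (by decide) (by decide) f0 f1 f3 f4)
    (hv _ _ (by decide))
  have m2 : ι (sw2 0 3 0 1) ∈ RI J s := mem_RI (hm _) (ho _ 3 (by decide) (by decide))
    (hc _ _ _ _ _ _ f0 f3 f0 f1) (hc 0 1 2 4 (by decide) (by decide) f0 f1 f2 f4)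
    (hv _ _ (by decide))
  have := eq_one_of_odd (h.A s hs _ (mul_mem m1 m2)) (k := 1)
    (by rw [← map_mul, ← map_pow, show (sw2 0 2 0 1 * sw2 0 3 0 1) ^ 2 ^ 1 = 1 by decide, map_one])
  rw [← map_mul] at this
  exact absurd (hi (this.trans (map_one ι).symm)) (by decide)

end Alt

end Cfsg.Agent.R2L
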