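import Mathlib
import Cfsg.Agent.R2L.Defs
import Cfsg.Agent.FG.RealElts

/-! Reduction of S3860 to the configuration `Cfg`. -/

set_option autoImplicit false
set_option linter.unusedSectionVars false

namespace Cfsg.Agent.R2L

open Subgroup Cfsg.Agent.GT.Tr Cfsg.Agent.Loc.Mss Cfsg.Agent.PN4

universe u

variable {G : Type u} [Group G] [Finite G] {X M : Subgroup G}

theorem Q.of_pn (h : PN 2 (RG X M)) : Q X M := fun x hx => by
  induction hx using closure_induction with
  | mem x hx => exact hx.2.1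
  | one => simp
  | mul x y a b hx hy =>
    exact Nat.coprime_two_right.1 (h x a y b (Nat.coprime_two_right.2 hx) (Nat.coprime_two_right.2 hy))
  | inv x _ hx => rwa [orderOf_inv]

theorem two_mul_dvd {D C : Subgroup G} (hD : IsPGroup 2 D) (hle : D ≤ C) {y : G} (hy : y ∈ C)
    (hn : y ∈ 𝐍[D]) {k : ℕ} (hk : y ^ 2 ^ k = 1) (hyD : y ∉ D) : Nat.card D * 2 ∣ Nat.card C := by
  have h2 : IsPGroup 2 ↥(D ⊔ zpowers y) := pg_sup' hD (pg_zp hk) (zpowers_le.2 hn)
  refine Dvd.dvd.trans ?_ (card_dvd_of_le (sup_le hle (zpowers_le.2 hy)))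
  obtain ⟨a, ha⟩ := IsPGroup.iff_card.1 hD
  obtain ⟨b, hb⟩ := IsPGroup.iff_card.1 h2
  have h4 : Nat.card D < Nat.card ↥(D ⊔ zpowers y) := lt_of_le_of_ne
    (card_le_of_le le_sup_left) fun e => hyD
      ((eq_of_le_of_card_ge le_sup_left e.ge).ge (mem_sup_right (mem_zpowers y)))
  rw [ha, hb] at h4 ⊢
  rw [← pow_succ]
  exact pow_dvd_pow 2 ((Nat.pow_lt_pow_iff_right one_lt_two).1 h4)

theorem dvd_of_fact {x y : G} {k : ℕ}
    (h : (centralizer ({y} : Set G)).index.factorization 2 =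
      (centralizer ({x} : Set G)).index.factorization 2)
    (hy : 2 ^ k ∣ Nat.card (centralizer ({y} : Set G))) :
    2 ^ k ∣ Nat.card (centralizer ({x} : Set G)) := by
  have a := (centralizer ({x} : Set G)).card_mul_index.trans
    (centralizer ({y} : Set G)).card_mul_index.symm
  have b := congrArg (fun n => n.factorization 2) a
  simp only [Nat.factorization_mul Nat.card_pos.ne' index_ne_zero_of_finite, Finsupp.add_apply] at b
  rw [Nat.prime_two.pow_dvd_iff_le_factorization Nat.card_pos.ne'] at hy ⊢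
  omega

theorem red (a : ℕ) (h : ∀ x : G, IsConj x x⁻¹ → x ∉ center G →
      (centralizer ({x} : Set G)).index.factorization 2 = a)
    (IH : ∀ (L : Type u) [Group L] [Finite L] (M : Subgroup L), M.Normal → Cfg M → Q ⊤ M) :
    Q (⊤ : Subgroup G) ⊤ := by
  by_contra hn
  obtain ⟨D, -, ⟨hD, hC⟩, hmax⟩ := GT.exists_maximal_ge
    (P := fun D : Subgroup G => IsPGroup 2 D ∧ ¬ Q 𝐍[D] 𝐂[D]) (H := ⊥)
    ⟨IsPGroup.of_bot, fun h => hn (h.mono (norm_normal _ _) (by rw [cent_bot]))⟩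
  set N := 𝐍[D] with hN
  let π := QuotientGroup.mk' (D.subgroupOf N)
  let ι := inclusion (cent_le_norm D)
  let f : 𝐂[D] →* N ⧸ D.subgroupOf N := π.comp ι
  have hker : ∀ x : N, π x = 1 ↔ (x : G) ∈ D := fun x => QuotientGroup.eq_one_iff x
  have lift : ∀ x ∈ f.range, Odd (orderOf x) → ∃ y : 𝐂[D], f y = x ∧ Odd (orderOf (y : G)) := by
    rintro _ ⟨x, rfl⟩ hx
    obtain ⟨y, -, h1, h2⟩ := lift_coprime (p := 2) f (Nat.coprime_two_right.2 hx)
    exact ⟨y, h1, by rw [Subgroup.orderOf_coe]; exact Nat.coprime_two_right.1 h2⟩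
  have inv : ∀ (y : 𝐂[D]) (t : N), Odd (orderOf (y : G)) → π t * f y * (π t)⁻¹ = (f y)⁻¹ →
      (t : G) * y * (t : G)⁻¹ = (y : G)⁻¹ := fun y t hy e => by
    have h1 : (y : G) * (t * y * (t : G)⁻¹) ∈ D := (hker (ι y * (t * ι y * t⁻¹))).1 (by
      rw [map_mul, map_mul, map_mul, map_inv]
      change f y * (π t * f y * (π t)⁻¹) = 1
      rw [e, mul_inv_cancel])
    have h2 : Commute (y : G) (t * y * (t : G)⁻¹) := by
      have := mem_cent.1 y.2 _ h1
      rw [mul_assoc] at this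
      exact (mul_left_cancel this).symm
    obtain ⟨k, hk⟩ := pg_iff.1 hD _ h1
    exact mul_eq_one_iff_eq_inv'.1 (eq_one_of_odd ((hy.mul (odd_conj hy t)).of_dvd_nat
      h2.orderOf_mul_dvd_mul_orderOf) hk)
  have hM : ¬ Q ⊤ f.range := fun hM => hC (Q.of_pn (pn_of_hom (f.comp (inclusion RG_le))
    (fun x hx => by
      have : (x : G) ∈ D := (hker _).1 hx
      exact mem_center_iff.2 fun y => Subtype.ext (mem_cent.1 (RG_le y.2) _ this).symm) (by
    have key : ∀ x ∈ RG N 𝐂[D], ∃ y : 𝐂[D], (y : G) = x ∧ f y ∈ RG ⊤ f.range := fun x hx => by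
      induction hx using closure_induction with
      | mem x hx =>
        obtain ⟨a, b, t, c, d⟩ := hx
        refine ⟨⟨x, a⟩, rfl, mem_RG ⟨_, rfl⟩ (odd_map f (by rwa [← Subgroup.orderOf_coe]))
          (mem_top (π ⟨t, c⟩)) ?_⟩
        change π _ * π _ * _ = (π _)⁻¹
        rw [← map_inv, ← map_inv, ← map_mul, ← map_mul]
        exact congrArg π (Subtype.ext d)
      | one => exact ⟨1, rfl, by simp⟩
      | mul x y _ _ hx hy =>
        obtain ⟨x, rfl, a⟩ := hx
        obtain ⟨y, rfl, b⟩ := hy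
        exact ⟨x * y, rfl, map_mul f x y ▸ mul_mem a b⟩
      | inv x _ hx =>
        obtain ⟨x, rfl, a⟩ := hx
        exact ⟨x⁻¹, rfl, map_inv f x ▸ inv_mem a⟩
    rintro _ ⟨x, rfl⟩ _ ⟨y, rfl⟩ - -
    rw [← map_mul]
    obtain ⟨z, h1, h2⟩ := key _ (x * y).2
    have : inclusion RG_le (x * y) = z := Subtype.ext h1.symm
    rw [MonoidHom.comp_apply, this]
    exact Nat.coprime_two_right.2 (hM _ h2))))
  refine hM (IH _ _ ⟨?_⟩ ⟨?_, ?_⟩)
  · rintro _ ⟨x, rfl⟩ g
    obtain ⟨g, rfl⟩ := QuotientGroup.mk'_surjective _ g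
    exact ⟨⟨g * x * (g : G)⁻¹, conj_mem_of_norm (norm_cent le_rfl g.2) x.2⟩, rfl⟩
  · intro s hs
    obtain ⟨s, rfl⟩ := QuotientGroup.mk'_surjective _ s
    obtain ⟨b, -, ha, j, hj⟩ := lift_pow (p := 2) π (x := s) (k := 1)
      (by rw [pow_one, pow_two]; exact sq_two hs)
    change orderOf (π s) = 2 at hs
    change Q (centralizer {π s}) (f.range ⊓ centralizer {π s})
    rw [← ha] at hs ⊢
    have h1 : (b : G) ∉ D := fun e => ne_two hs ((hker b).2 e)
    have hb : (b : G) ^ 2 ^ j = 1 := by rw [← hj, ← Subgroup.orderOf_coe, pow_orderOf_eq_one]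
    have h2 : IsPGroup 2 ↥(D ⊔ zpowers (b : G)) := pg_sup' hD (pg_zp hb) (zpowers_le.2 b.2)
    have h3 : Q 𝐍[D ⊔ zpowers (b : G)] 𝐂[D ⊔ zpowers (b : G)] := by
      by_contra h3
      exact h1 (hmax _ ⟨h2, h3⟩ le_sup_left ▸ mem_sup_right (mem_zpowers (b : G)))
    have hcm : ∀ t : N, π t ∈ centralizer {π b} → (b : G)⁻¹ * (t * b * (t : G)⁻¹) ∈ D :=
      fun t ht => (hker (b⁻¹ * (t * b * t⁻¹))).1 (by
        rw [map_mul, map_mul, map_mul, map_inv, map_inv, mem_centralizer_singleton_iff.1 ht]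
        group)
    have key : ∀ x ∈ RG (centralizer {π b}) (f.range ⊓ centralizer {π b}), ∃ y : N, π y = x ∧
        (y : G) ∈ RG 𝐍[D ⊔ zpowers (b : G)] 𝐂[D ⊔ zpowers (b : G)] := fun x hx => by
      induction hx using closure_induction with
      | mem x hx =>
        obtain ⟨⟨a1, a2⟩, a3, t, a4, a5⟩ := hx
        obtain ⟨y, rfl, hy⟩ := lift x a1 a3
        obtain ⟨t, rfl⟩ := QuotientGroup.mk'_surjective _ t
        refine ⟨ι y, rfl, mem_RG ?_ hy ?_ (inv y t hy a5)⟩
        · have h5 : Commute (y : G) b := commute_of_mod hD y.2 (Nat.coprime_two_right.2 hy)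
            (hcm (ι y) a2)
          rw [cent_sup]
          refine ⟨y.2, mem_cent.2 ?_⟩
          rintro _ ⟨n, rfl⟩
          exact (h5.zpow_right n).symm
        · refine mem_norm_of_cj_le ?_
          rw [cj_sup]
          refine sup_le (((cj_eq_iff).2 t.2).le.trans le_sup_left) ?_
          rw [MonoidHom.map_zpowers, zpowers_le]
          change (t : G) * b * (t : G)⁻¹ ∈ _
          have : (t : G) * b * (t : G)⁻¹ = b * ((b : G)⁻¹ * (t * b * (t : G)⁻¹)) := by group
          rw [this]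
          exact mul_mem (mem_sup_right (mem_zpowers _)) (mem_sup_left (hcm t a4))
      | one => exact ⟨1, rfl, one_mem _⟩
      | mul x y _ _ hx hy =>
        obtain ⟨x, rfl, a⟩ := hx
        obtain ⟨y, rfl, b⟩ := hy
        exact ⟨x * y, map_mul π x y, mul_mem a b⟩
      | inv x _ hx =>
        obtain ⟨x, rfl, a⟩ := hx
        exact ⟨x⁻¹, map_inv π x, inv_mem a⟩
    intro x hx
    obtain ⟨y, rfl, hy⟩ := key x hx
    exact odd_map π (by rw [← Subgroup.orderOf_coe]; exact h3 _ hy)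
  · rintro x ⟨a1, a2, t, -, a3⟩ a4
    obtain ⟨w, rfl, hw⟩ := lift x a1 a2
    obtain ⟨t, rfl⟩ := QuotientGroup.mk'_surjective _ t
    have h1 := inv w t hw a3
    have h2 : (w : G) ∉ center G := fun e => a4 (by
      rw [mem_center_iff.1 e, mul_inv_cancel_right] at h1
      rw [show w = 1 from Subtype.ext (eq_one_of_inv hw h1.symm), map_one])
    obtain ⟨y, y1, y2, y3⟩ : ∃ y : 𝐂[D], y ^ 4 = 1 ∧ IsConj y y⁻¹ ∧ y ∉ center 𝐂[D] := by
      by_contra e
      push Not at e
      exact hC (Q.of_pn ((pn_iff.2 (FG.CI.hasNormalPComplement_two_of_real_central e)).mono RG_le))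
    have h3 : Nat.card D * 2 ∣ Nat.card (centralizer ({(y : G)} : Set G)) := two_mul_dvd hD
      (fun d hd => mem_centralizer_singleton_iff.2 (mem_cent.1 y.2 d hd))
      (mem_centralizer_singleton_iff.2 rfl) (cent_le_norm D y.2) (k := 2) (congrArg Subtype.val y1)
      fun e => y3 (mem_center_iff.2 fun z => Subtype.ext (mem_cent.1 z.2 _ e).symm)
    obtain ⟨k, hk⟩ := IsPGroup.iff_card.1 hD
    rw [hk, ← pow_succ] at h3
    have h4 := dvd_of_fact ((h y ((𝐂[D]).subtype.map_isConj y2) fun e => y3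
      (mem_center_iff.2 fun z => Subtype.ext (mem_center_iff.1 e z))).trans
        (h w (isConj_iff.2 ⟨t, h1⟩) h2).symm) h3
    rw [pow_succ, ← hk] at h4
    obtain ⟨s, s1, s2, s3, s4⟩ := exists_bigger hD
      (fun d hd => mem_centralizer_singleton_iff.2 (mem_cent.1 w.2 d hd)) h4
    refine ⟨π ⟨s, s2⟩, orderOf_eq_prime ?_ fun e => s3 ((hker _).1 e), ?_⟩
    · rw [← map_pow]
      exact (hker _).2 s4
    · have : Commute (⟨s, s2⟩ : N) (ι w) := Subtype.ext (mem_centralizer_singleton_iff.1 s1)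
      exact this.map π

theorem concl (h : Q (⊤ : Subgroup G) ⊤) : ∃ N K : Subgroup G, N.Normal ∧ K.Normal ∧ N ≤ K ∧
    Odd (Nat.card N) ∧ Odd K.index ∧ ∃ j : ℕ, N.relIndex K = 2 ^ j := by
  set N := RG (⊤ : Subgroup G) ⊤
  obtain ⟨P⟩ : Nonempty (Sylow 2 (G ⧸ N)) := inferInstance
  have := normal_sylow h.odd le_rfl P
  refine ⟨N, (P : Subgroup (G ⧸ N)).comap (QuotientGroup.mk' N), inferInstance, inferInstance,
    fun x hx => ?_, h.odd, ?_, ?_⟩
  · rw [mem_comap, show QuotientGroup.mk' N x = 1 from (QuotientGroup.eq_one_iff x).2 hx]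
    exact one_mem _
  · rw [index_comap_of_surjective _ (QuotientGroup.mk'_surjective N), Nat.odd_iff]
    have := P.not_dvd_index
    omega
  · obtain ⟨j, hj⟩ := IsPGroup.iff_card.1 P.2
    refine ⟨j, ?_⟩
    rw [← hj, ← relIndex_bot_left, ← map_comap_eq_self_of_surjective
      (QuotientGroup.mk'_surjective N) (P : Subgroup (G ⧸ N)), ← relIndex_comap,
      map_comap_eq_self_of_surjective (QuotientGroup.mk'_surjective N), MonoidHom.comap_bot,
      QuotientGroup.ker_mk']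

end Cfsg.Agent.R2L
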